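import Cfsg.Agent.H42.FvDefs

/-! Project FV, pieces COMM and FILT. -/

set_option autoImplicit false

namespace Cfsg.Agent.H40.FvComm

open Equiv Cfsg.Lie H37 H34 H29 Module H50.E83 Cfsg.Agent.H42.Fv

/-- All chains of the table have one term. -/
def Short (D : ChevalleyDatum) : Prop :=
  D.chain.toList.all (fun row => row.toList.all fun e => e.2.toList.length ≤ 1) = true

theorem short_E8 : Short chevE8 := by
  unfold Short; decide +kernel

section
variable {D : ChevalleyDatum}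

theorem Short.entry (h : Short D) (r s : ℕ) : (D.chainEntry r s).length ≤ 1 := by
  unfold ChevalleyDatum.chainEntry
  split
  · simp
  · rename_i e he
    have h1 := List.mem_of_find?_eq_some he
    by_cases hr : r < D.chain.size
    · have h2 : D.chain.getD r #[] ∈ D.chain.toList := by simp [Array.getD, hr]
      simpa using List.all_eq_true.1 (List.all_eq_true.1 h _ h2) e h1
    · simp [Array.getD, hr] at h1

theorem Short.root (h : Short D) (r s : ℕ) {i : ℕ} (hi : 2 ≤ i) : D.chainRoot r s i = none := by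
  have := h.entry r s
  rw [ChevalleyDatum.chainRoot, List.getElem?_eq_none (by omega)]; rfl

theorem Short.terms (h : Short D) {r s : ℕ} {c : ℕ × ℤ × ℕ × ℕ} (hc : c ∈ D.commTerms r s) :
    c.2.2 = (1, 1) := by
  simp only [ChevalleyDatum.commTerms, h.root _ _ le_rfl, h.root _ _ (show 2 ≤ 3 by norm_num),
    List.mem_filterMap, Option.map_eq_some_iff, List.mem_cons, List.not_mem_nil, or_false] at hc
  obtain ⟨a, ha, k, hk, rfl⟩ := hc
  rcases ha with rfl | rfl | rfl | rfl | rfl | rfl | rfl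
  · rfl
  all_goals simp at hk

theorem comm_gen (h : Short D) (C : Cert D) (F : Type) [Field F] {r s : Fin D.nroots}
    (hr : C.R.Pos r) (hs : C.R.Pos s) {x y : D.group F} (hx : x ∈ (C.split F).X r)
    (hy : y ∈ (C.split F).X s) :
    x * y * x⁻¹ * y⁻¹ ∈ (C.split F).U {t | C.R.rc t = C.R.rc r + C.R.rc s} := by
  obtain ⟨t, rfl⟩ := (Cert.mem_X_iff (C := C)).1 hx
  obtain ⟨u, rfl⟩ := (Cert.mem_X_iff (C := C)).1 hy
  by_cases hrs : r = s
  · subst hrs
    rw [← Cert.xg_neg, ← Cert.xg_neg, ← Cert.xg_add, ← Cert.xg_add, ← Cert.xg_add,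
      show t + u + -t + -u = 0 by ring, Cert.xg_zero]
    exact one_mem _
  have h0 := Cert.xg_comm (C := C) (F := F) s.2 r.2 (fun h => hrs (Fin.ext h))
    (fun h => RS.Pos.ne_neg hs hr (Fin.ext (h.trans (C.neg_val s).symm))) (-u) (-t)
  rw [Cert.xg_neg, Cert.xg_neg] at h0
  rw [mul_assoc, h0, show ∀ a b c : D.group F, a * b * (b⁻¹ * a⁻¹ * c) = c by intros; group]
  refine Subgroup.list_prod_mem _ fun z hz => ?_
  obtain ⟨p, hp, rfl⟩ := List.mem_map.1 hz
  obtain ⟨c, hc, rfl⟩ := List.mem_map.1 hp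
  obtain ⟨h1, -, -, h4⟩ := C.commTerms_spec s.2 r.2 c hc
  have h5 := C.rc_of_cartan (k := ⟨c.1, h1⟩) h4
  rw [h.terms hc] at h5
  refine Subgroup.subset_closure ⟨⟨c.1, h1⟩, ?_, Cert.mem_X_iff.2 ⟨_, rfl⟩⟩
  simpa [add_comm] using h5

end

theorem comm : CommStmt := fun _ hr _ hs _ hx _ hy => comm_gen short_E8 C8 K hr hs hx hy

theorem filt : FiltStmt := by
  intro A hA hC r hr s hs x hx y hy
  rw [← Split.U_eq_gen]
  refine Split.U_sub (comm r (hA hr) s (hA hs) x hx y hy) fun t ht => ?_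
  have h1 := Sum2.ht ht
  have h2 := (C8.R.ht_pos_iff r).2 (hA hr)
  have h3 := (C8.R.ht_pos_iff s).2 (hA hs)
  exact ⟨hC r hr s hs t ht, by omega, by omega⟩

end Cfsg.Agent.H40.FvComm
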