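import Cfsg.Agent.H35.S4Defs

/-!
Standard subgroups of type `Sp₄(q)`: the coordinate on `W₂ / X₂` in type III.
-/

set_option autoImplicit false
set_option linter.unusedSectionVars false

namespace Cfsg.Agent.H40.S4Lv4a

open Cfsg Cfsg.Agent.H63 Cfsg.Agent.H63.SL Cfsg.Agent.H35.S4 Subgroup
open scoped commutatorElement

universe u v

section Alg

variable {F : Type v} [Field F] {A : Type v} [CommRing A] {j : F →+* A} {σ : A ≃+* A}

theorem σj (hq : Quad j σ) (u : F) : σ (j u) = j u := (hq.fix _).2 ⟨u, rfl⟩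

theorem aa (hq : Quad j σ) (a : A) : a + a = 0 := by linear_combination a * hq.two

theorem ex_tr (hq : Quad j σ) (a : A) : ∃ n, j n = a + σ a :=
  let ⟨n, h⟩ := (hq.fix (a + σ a)).1 (by rw [map_add, hq.sq, add_comm])
  ⟨n, h.symm⟩

theorem ex_nm (hq : Quad j σ) (a : A) : ∃ n, j n = a * σ a :=
  let ⟨n, h⟩ := (hq.fix (a * σ a)).1 (by rw [map_mul, hq.sq, mul_comm])
  ⟨n, h.symm⟩

theorem basis (hq : Quad j σ) {ω : A} (hω : σ ω = ω + 1) (a : A) :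
    ∃ r r', a = j r * 1 + j r' * ω := by
  obtain ⟨n, hn⟩ := ex_tr hq a
  obtain ⟨b, hb⟩ := (hq.fix (a + j n * ω)).1 (by
    rw [map_add, map_mul, σj hq, hω]; linear_combination hn + σ a * hq.two)
  exact ⟨b, n, by linear_combination hb - j n * ω * hq.two⟩

theorem alg (hq : Quad j σ) (m ζ : A → A → A) (q : A → F)
    (m1 : ∀ a a' b, m (a + a') b = m a b + m a' b) (m2 : ∀ a b b', m a (b + b') = m a b + m a b')
    (m3 : ∀ r a b, m (j r * a) b = j r * m a b) (m4 : ∀ r a b, m a (j r * b) = j r * m a b)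
    (m5 : ∀ a, m a 1 = a) (m6 : ∀ b, m 1 b = b) (m7 : ∀ a b, m (σ a) (σ b) = σ (m a b))
    (z1 : ∀ a a' b, ζ (a + a') b = ζ a b + ζ a' b) (z3 : ∀ r a b, ζ (j r * a) b = j r * ζ a b)
    (zs : ∀ a b, ζ b a = σ (ζ a b)) (q1 : q 1 = 1)
    (hQ : ∀ a b, j (q (m a b)) = a * σ a * j (q b)) (hZ : ∀ a b, ζ (m a b) b = σ a * j (q b)) :
    (∀ a, j (q a) = a * σ a) ∧ (∀ a b, ζ a b = σ a * b) ∧ ∀ a b, m a b = a * b := by
  obtain ⟨ω, hω⟩ := hq.tr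
  have h1 : ∀ a, j (q a) = a * σ a := fun a => by simpa [m5, q1] using hQ a 1
  have h2 : ∀ a, ζ a 1 = σ a := fun a => by simpa [m5, q1] using hZ a 1
  have h3 : ∀ a, ζ a a = a * σ a := fun a => by simpa [m6, h1] using hZ 1 a
  have h4 : ∀ a, ζ a ω = σ a * ω := fun a => by
    obtain ⟨r, r', rfl⟩ := basis hq hω a
    rw [z1, z3, z3, zs ω 1, h2, h3, hq.sq]
    simp only [map_add, map_mul, σj hq, map_one]
    ring
  have h5 : ∀ a b, ζ a b = σ a * b := fun a b => by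
    obtain ⟨r, r', rfl⟩ := basis hq hω b
    rw [zs, z1, z3, z3, zs a 1, zs a ω, h2, h4]
    simp only [map_add, map_mul, σj hq, hq.sq]
    ring
  have h6 : m ω ω = ω * ω := by
    have e := m7 ω ω
    rw [hω, m1, m2, m5, m6] at e
    obtain ⟨c, hc⟩ := (hq.fix (m ω ω + ω * ω)).1 (by
      rw [map_add, map_mul, ← e, hω]; linear_combination (2 * ω + 1) * hq.two)
    have e2 := hZ ω ω
    rw [h5, h1, ← e, hω] at e2
    have e3 : j c * ω = 0 := by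
      rw [← hc]; linear_combination e2 + ω ^ 3 * hq.two
    have e4 := congrArg σ e3
    rw [map_mul, σj hq, hω, map_zero] at e4
    linear_combination hc + e4 - e3 - ω * ω * hq.two
  refine ⟨h1, h5, fun a b => ?_⟩
  obtain ⟨r, r', rfl⟩ := basis hq hω a
  obtain ⟨w, w', rfl⟩ := basis hq hω b
  rw [m1, m3, m3, m6, m2, m4, m4, m5, h6]
  ring

theorem wt2 (α β : Aˣ) : wt α β 2 = α ^ 2 * β := rfl
theorem wt3 (α β : Aˣ) : wt α β 3 = α * β := rfl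
theorem wt4 (α β : Aˣ) : wt α β 4 = β := rfl

end Alg

theorem comm_cen {G : Type u} [Group G] {a c z z' : G} (h1 : z * (c * z') = c * z' * z)
    (h2 : z' * a⁻¹ = a⁻¹ * z') : ⁅a * z, c * z'⁆ = ⁅a, c⁆ := by
  rw [commutatorElement_def, mul_assoc a, h1,
    show a * (c * z' * z) * (a * z)⁻¹ * (c * z')⁻¹ = a * c * (z' * a⁻¹) * (c * z')⁻¹ by group, h2,
    commutatorElement_def]
  group

variable {F : Type v} [Field F] [Finite F] {G : Type u} [Group G] [Finite G] {L : Subgroup G}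
  {x : ZMod 8 → F → G} {t : G} {A : Type v} [CommRing A] {j : F →+* A} {σ : A ≃+* A}
  {y : ZMod 8 → A → G} {Yh : ZMod 8 → Subgroup G} {S P R W2 W4 : Subgroup G}

/-- `d` is the `W₂`-component of `⁅y₁(a), e⁆` -/
def Rl (y : ZMod 8 → A → G) (W2 : Subgroup G) (a : A) (e d : G) : Prop :=
  d ∈ W2 ∧ ∃ b, ⁅y 1 a, e⁆ = d * y 3 b

theorem Rl.conj {a a' : A} {e d g : G} (h : Rl y W2 a e d) (h1 : g * y 1 a * g⁻¹ = y 1 a')
    (h3 : ∀ b, ∃ b', g * y 3 b * g⁻¹ = y 3 b') (hd : g * d * g⁻¹ ∈ W2) :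
    Rl y W2 a' (g * e * g⁻¹) (g * d * g⁻¹) := by
  obtain ⟨-, b, hb⟩ := h
  obtain ⟨b', hb'⟩ := h3 b
  refine ⟨hd, b', ?_⟩
  rw [← h1, ← hb', ← conjugate_commutatorElement, hb]
  group

variable (hC : Ctx L x t) (hT : T3 L x t j σ y Yh S P R W2 W4) (hb : Lv3b y W2 W4)

section
include hC

theorem x_zero (i : ZMod 8) : x i 0 = 1 := by
  have := hC.mod.pin.add i 0 0
  rw [add_zero] at this
  exact mul_eq_left.1 this.symm

theorem ff (a : F) : a + a = 0 := by linear_combination a * hC.mod.pin.two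

theorem x_sq (i : ZMod 8) (a : F) : x i a * x i a = 1 := by
  rw [← hC.mod.pin.add, ff hC, x_zero hC]

theorem x_inj {i : ZMod 8} {a b : F} (h : x i a = x i b) : a = b := by
  have := hC.mod.pin.inj i (a + b) (by rw [hC.mod.pin.add, h, x_sq hC])
  linear_combination this - ff hC b

theorem t_inv : t⁻¹ = t :=
  inv_eq_of_mul_eq_one_right (by rw [← sq, ← hC.tc.t2, pow_orderOf_eq_one])

theorem n_inv : (n2 x 1)⁻¹ = n2 x 1 := inv_eq_of_mul_eq_one_right (hC.kb.nsq 1)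

theorem nn_conj (e : G) : n2 x 1 * (n2 x 1 * e * (n2 x 1)⁻¹) * (n2 x 1)⁻¹ = e := by
  rw [show n2 x 1 * (n2 x 1 * e * (n2 x 1)⁻¹) * (n2 x 1)⁻¹ =
    n2 x 1 * n2 x 1 * e * (n2 x 1 * n2 x 1)⁻¹ by group, hC.kb.nsq]
  group

theorem n_x2 (u : F) : n2 x 1 * x 2 u * (n2 x 1)⁻¹ = x 4 u := hC.kp.nn 1 2 u

theorem n_x4 (u : F) : n2 x 1 * x 4 u * (n2 x 1)⁻¹ = x 2 u := hC.kp.nn 1 4 u

theorem memT {i : ZMod 8} {h : G} (hh : h ∈ HH x L) (e : ∀ a, h * x i a * h⁻¹ = x i a) :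
    h ∈ TT x L i := ⟨hh, mem_centralizer_iff.2 fun g hg => by
  obtain ⟨a, rfl⟩ := (hC.kp.memX i g).1 hg
  exact (mul_inv_eq_iff_eq_mul.1 (e a)).symm⟩

end

include hT

theorem y_zero {i : ZMod 8} (hi : sh i) : y i 0 = 1 := by
  have := hT.ds.add i hi 0 0
  rw [add_zero] at this
  exact mul_eq_left.1 this.symm

theorem y_sq {i : ZMod 8} (hi : sh i) (a : A) : y i a * y i a = 1 := by
  rw [← hT.ds.add i hi, aa hT.ds.quad, y_zero hT hi]

theorem y_inj {a b : A} (h : y 3 a = y 3 b) : a = b := by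
  have := hT.ds.inj 3 (by decide) (a + b) (by rw [hT.ds.add 3 (by decide), h, y_sq hT (by decide)])
  linear_combination this - aa hT.ds.quad b

theorem W2R {e : G} (h : e ∈ W2) : e ∈ R := (hT.l3.two ▸ h : e ∈ R ⊓ C[TT x L 2]).1

theorem W4R {e : G} (h : e ∈ W4) : e ∈ R := (hT.l3.four ▸ h : e ∈ R ⊓ C[TT x L 4]).1

theorem cS {g s : G} (hg : g ∈ R) (hs : s ∈ S) : s * g = g * s :=
  mem_centralizer_iff.1 ((hT.l2.mem g).1 hg).2.1 s hs

theorem n_y3 (b : A) : n2 x 1 * y 3 b * (n2 x 1)⁻¹ = y 3 (σ b) := hT.ds.wey 1 3 (by decide) b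

theorem n_y1 (b : A) : n2 x 1 * y 1 b * (n2 x 1)⁻¹ = y 5 (σ b) := hT.ds.wey 1 1 (by decide) b

theorem x2W (u : F) : x 2 u ∈ W2 := hT.l3.le (hT.hl.le 2 (by decide) u)

include hC

theorem j_inj : Function.Injective j := by
  have h := hT.ds.quad.card
  have h4 := hC.mod.four
  haveI : Nontrivial A := by
    by_contra hn
    haveI := not_nontrivial_iff_subsingleton.1 hn
    rw [Nat.card_of_subsingleton (0 : A)] at h
    nlinarith
  exact j.injective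

theorem x2S (u : F) : x 2 u ∈ S :=
  (hT.l1.memS _).2 ⟨u, 0, 0, by rw [y_zero hT (by decide), x_zero hC, mul_one, mul_one]⟩

theorem y3S (b : A) : y 3 b ∈ S :=
  (hT.l1.memS _).2 ⟨0, b, 0, by rw [x_zero hC, x_zero hC, mul_one, one_mul]⟩

theorem x4S (u : F) : x 4 u ∈ S :=
  (hT.l1.memS _).2 ⟨0, 0, u, by rw [y_zero hT (by decide), x_zero hC, mul_one, one_mul]⟩

theorem star2 {e : G} (h : e ∈ W2) : n2 x 1 * e * (n2 x 1)⁻¹ ∈ W4 :=
  (hT.l3.sw _).2 (by rwa [nn_conj hC])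

theorem x4W (u : F) : x 4 u ∈ W4 := n_x2 hC u ▸ star2 hC hT (x2W hT u)

theorem uq {d d' e e' : G} {b b' : A} (hd : d ∈ W2) (hd' : d' ∈ W2) (he : e ∈ W4) (he' : e' ∈ W4)
    (h : d * y 3 b * e = d' * y 3 b' * e') : d = d' ∧ b = b' ∧ e = e' := by
  have c := cS hT (W4R hT (mul_mem he (inv_mem he'))) (y3S hC hT b')
  obtain ⟨h1, h2, h3⟩ := hT.l3.uniq _ (mul_mem (inv_mem hd') hd) (b + b') _ (mul_mem he (inv_mem he')) (by
    rw [hT.ds.add 3 (by decide), mul_assoc, mul_assoc (y 3 b), c,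
      show d'⁻¹ * d * (y 3 b * (e * e'⁻¹ * y 3 b')) = d'⁻¹ * (d * y 3 b * e) * e'⁻¹ * y 3 b' by group, h,
      show d'⁻¹ * (d' * y 3 b' * e') * e'⁻¹ * y 3 b' = y 3 b' * y 3 b' by group, y_sq hT (by decide)])
  exact ⟨(inv_mul_eq_one.1 h1).symm, by linear_combination h2 - aa hT.ds.quad b', mul_inv_eq_one.1 h3⟩

theorem hW2 {g e : G} (hg : g ∈ N[R]) (hc : ∀ k ∈ HH x L, Commute g k) (he : e ∈ W2) :
    g * e * g⁻¹ ∈ W2 := by
  rw [hT.l3.two] at he ⊢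
  refine ⟨(mem_normalizer_iff.1 hg e).1 he.1, mem_centralizer_iff.2 fun k hk => ?_⟩
  have h1 := mem_centralizer_iff.1 he.2 k hk
  have h2 := (hc k hk.1).eq
  have h3 := (hc k hk.1).inv_left.eq
  rw [← mul_assoc, ← mul_assoc, ← h2, mul_assoc g, h1, mul_assoc, mul_assoc, ← h3]
  group

theorem hH2 {h e : G} (hh : h ∈ HH x L) (he : e ∈ W2) : h * e * h⁻¹ ∈ W2 :=
  hW2 hC hT (hT.l2.nR.2.1 hh) (hC.kb.comH h hh) he

theorem ht2 {e : G} (he : e ∈ W2) : t * e * t⁻¹ ∈ W2 :=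
  hW2 hC hT hT.l2.nR.1 (fun k hk => hC.kb.tL k hk.1) he

theorem Rl.uniq {a : A} {e d d' : G} (h : Rl y W2 a e d) (h' : Rl y W2 a e d') : d = d' := by
  obtain ⟨hd, b, e1⟩ := h
  obtain ⟨hd', b', e2⟩ := h'
  exact (uq hC hT hd hd' (one_mem _) (one_mem _) (by rw [← e1, ← e2])).1

theorem Rl.mul {a : A} {e e' d d' : G} (he : e ∈ W4) (h : Rl y W2 a e d) (h' : Rl y W2 a e' d') :
    Rl y W2 a (e * e') (d * d') := by
  obtain ⟨hd, b, e1⟩ := h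
  obtain ⟨hd', b', e2⟩ := h'
  obtain ⟨c, e3⟩ := hT.l3.l2 _ (inv_mem hd') e he
  have c1 := cS hT (W4R hT (inv_mem he)) (y3S hC hT b')
  have c2 := cS hT (W2R hT hd') (y3S hC hT b)
  refine ⟨mul_mem hd hd', b + c + b', ?_⟩
  rw [show ⁅y 1 a, e * e'⁆ = ⁅y 1 a, e⁆ * (e * ⁅y 1 a, e'⁆ * e⁻¹) by
      simp only [commutatorElement_def]; group, e1, e2, mul_assoc e, mul_assoc d', c1,
    show e * (d' * (e⁻¹ * y 3 b')) = d' * ⁅d'⁻¹, e⁆ * y 3 b' by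
      simp only [commutatorElement_def]; group, e3, hT.ds.add 3 (by decide), hT.ds.add 3 (by decide),
    mul_assoc d', mul_assoc d, ← mul_assoc (y 3 b), c2]
  group

theorem rl_x4 {a : A} {n : F} (hn : j n = a * σ a) (u : F) : Rl y W2 a (x 4 u) (x 2 (n * u)) :=
  ⟨x2W hT _, _, (hT.ds.s3 1 (by decide) a n hn u).1⟩

theorem Rl.sq {a : A} {n c : F} {e d : G} (h : Rl y W2 a e d) (he : e ∈ W4) (hn : j n = a * σ a)
    (hc : e * e = x 4 c) : d * d = x 2 (n * c) ∧ ⁅d⁻¹, e⁆ = y 3 (σ a * j c) := by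
  obtain ⟨hd, b, e1⟩ := h
  obtain ⟨b', e2⟩ := hT.l3.l2 _ (inv_mem hd) e he
  have e3 : ⁅y 1 a, x 4 c⁆ = x 2 (n * c) * y 3 (σ a * j c) := (hT.ds.s3 1 (by decide) a n hn c).1
  have c1 := cS hT (W4R hT (inv_mem he)) (y3S hC hT b)
  have c2 := cS hT (W2R hT hd) (y3S hC hT b)
  have e4 : ⁅y 1 a, x 4 c⁆ = d * d * y 3 (b + b' + b) := by
    rw [← hc, show ⁅y 1 a, e * e⁆ = ⁅y 1 a, e⁆ * (e * ⁅y 1 a, e⁆ * e⁻¹) by
      simp only [commutatorElement_def]; group, e1, mul_assoc e, mul_assoc d (y 3 b) e⁻¹, c1,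
    show e * (d * (e⁻¹ * y 3 b)) = d * ⁅d⁻¹, e⁆ * y 3 b by
      simp only [commutatorElement_def]; group, e2, hT.ds.add 3 (by decide), hT.ds.add 3 (by decide),
    mul_assoc d (y 3 b'), mul_assoc d, ← mul_assoc (y 3 b), c2]
    group
  obtain ⟨h1, h2, -⟩ := uq hC hT (mul_mem hd hd) (x2W hT _) (one_mem _) (one_mem _) (by rw [← e4, e3])
  exact ⟨h1, by rw [e2, ← h2, add_right_comm, aa hT.ds.quad, zero_add]⟩

theorem Yh2_S {p : G} {u : F} (hp : p ∈ Yh 2) (hs : p ∈ S) (h : p * t * p⁻¹ = t * x 2 u) : u = 0 := by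
  obtain ⟨a, rfl⟩ := (hC.kp.memX 2 p).1 (hT.l1.uniqP p hp 1 (one_mem _) (by rwa [mul_one])).1
  rw [← (hC.kb.tL _ (hC.kb.xL 2 a)).eq, mul_inv_cancel_right] at h
  exact hC.mod.pin.inj 2 u (mul_eq_left.1 h.symm)

theorem Rl.inj {a : A} {u : F} {p : G} (hp : p ∈ Yh 4) (hp' : p ∈ W4) (hl : p * t * p⁻¹ = t * x 4 1)
    (h : Rl y W2 a p (x 2 u)) : a = 0 := by
  obtain ⟨-, b, e1⟩ := h
  have hq := hT.ds.quad
  have hS : ⁅y 1 a, p⁆ ∈ S := e1 ▸ mul_mem (x2S hC hT u) (y3S hC hT b)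
  obtain ⟨s, hs⟩ := ex_tr hq a
  have e2 : y 1 a * t * (y 1 a)⁻¹ = t * x 1 s := by
    rw [← hT.ds.res 1 (by decide), hs, add_comm, hT.ds.add 1 (by decide), ← hT.ds.conj 1 (by decide),
      inv_eq_of_mul_eq_one_right (y_sq hT (by decide) a), ← mul_assoc, ← mul_assoc, ← mul_assoc]
    nth_rewrite 2 [← t_inv hC]
    rw [inv_mul_cancel, one_mul, t_inv hC]
  obtain ⟨p', h1, h2, h3⟩ := hT.l1.up a s e2 p hp 1 hl
  have h4 : t⁻¹ * (y 1 a * p * (y 1 a)⁻¹ * t * (y 1 a * p * (y 1 a)⁻¹)⁻¹) ∈ S := by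
    rw [show t⁻¹ * (y 1 a * p * (y 1 a)⁻¹ * t * (y 1 a * p * (y 1 a)⁻¹)⁻¹) =
      t⁻¹ * ⁅y 1 a, p⁆ * (p * t * p⁻¹) * ⁅y 1 a, p⁆⁻¹ by simp only [commutatorElement_def]; group, hl,
      ← mul_assoc]
    exact mul_mem (mul_mem ((mem_normalizer_iff''.1 hT.l1.nS.1 _).1 hS) (x4S hC hT 1)) (inv_mem hS)
  have h5 := Yh2_S hC hT h1 (inv_mem_iff.1 ((mul_mem_cancel_right h4).1 h3)) h2
  rw [mul_one, pow_eq_zero_iff two_ne_zero] at h5
  obtain ⟨r, rfl⟩ := (hq.fix a).1 (by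
    rw [h5, map_zero] at hs
    linear_combination -hs - aa hq a)
  obtain ⟨p', k1, b', k2, -, k3⟩ := hT.hl.l3 p hp 1 hl r
  have k4 : ⁅y 1 (j r), p⁆ = p' * y 3 b' := by
    rw [hT.ds.res 1 (by decide), commutatorElement_def, k3, mul_assoc p', ← cS hT (W4R hT hp') (y3S hC hT b')]
    group
  have k5 := Yh2_S hC hT k1 ((mul_mem_cancel_right (y3S hC hT b')).1 (k4 ▸ hS)) k2
  rw [mul_one, pow_eq_zero_iff two_ne_zero] at k5
  rw [k5, map_zero]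

include hb

theorem Rl.add {a a' : A} {e d d' : G} (h : Rl y W2 a e d) (h' : Rl y W2 a' e d') :
    ∃ u, Rl y W2 (a + a') e (d' * d * x 2 u) := by
  obtain ⟨hd, b, e1⟩ := h
  obtain ⟨hd', b', e2⟩ := h'
  obtain ⟨n, hn⟩ := ex_tr hT.ds.quad (a * b')
  have e3 : ⁅y 1 a, y 3 b'⁆ = x 2 n := hT.ds.s2 1 (by decide) a b' n hn
  have c1 := (hb.c1 a d' hd').eq
  have c2 := cS hT (W2R hT hd) (mul_mem (x2S hC hT n) (y3S hC hT b'))
  refine ⟨n, mul_mem (mul_mem hd' hd) (x2W hT n), b' + b, ?_⟩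
  rw [hT.ds.add 1 (by decide), show ⁅y 1 a * y 1 a', e⁆ = y 1 a * ⁅y 1 a', e⁆ * (y 1 a)⁻¹ * ⁅y 1 a, e⁆ by
      simp only [commutatorElement_def]; group, e1, e2, ← mul_assoc (y 1 a), c1,
    show d' * y 1 a * y 3 b' * (y 1 a)⁻¹ * (d * y 3 b) = d' * (⁅y 1 a, y 3 b'⁆ * y 3 b' * d) * y 3 b by
      simp only [commutatorElement_def]; group, e3, c2, hT.ds.add 3 (by decide)]
  group

theorem rl_one {e : G} (he : e ∈ W4) : Rl y W2 1 e (n2 x 1 * e * (n2 x 1)⁻¹) := by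
  obtain ⟨d, hd, b, e1⟩ := hb.l3 1 e he
  obtain ⟨f, hf, b', e2⟩ := hb.l3 1 _ (star2 hC hT hd)
  have he' := (hT.l3.sw e).1 he
  have r1 : y 1 1 = x 1 1 := by rw [← hT.ds.res 1 (by decide), map_one]
  have r5 : y 5 1 = x 5 1 := by rw [← hT.ds.res 5 (by decide), map_one]
  have n5 : n2 x 1 * x 1 1 * (n2 x 1)⁻¹ = x 5 1 := hC.kp.nn 1 1 1
  have n6 : n2 x 1 = x 5 1 * x 1 1 * x 5 1 := by
    have h : n2 x 1 = x 1 1 * x 5 1 * x 1 1 := rfl
    rw [h] at n5 ⊢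
    exact (by group : _ = x 1 1 * x 5 1 * x 1 1 * x 1 1 * (x 1 1 * x 5 1 * x 1 1)⁻¹ * x 1 1 * x 5 1).trans
      (by rw [n5])
  have c5 : x 5 1 * e * (x 5 1)⁻¹ = e := by
    have := (hb.c1 1 _ he').eq
    rw [r1] at this
    rw [← n5, ← nn_conj hC e, show ∀ n a c : G, n * a * n⁻¹ * (n * c * n⁻¹) * (n * a * n⁻¹)⁻¹ =
      n * (a * c * a⁻¹) * n⁻¹ from fun n a c => by group, this, mul_inv_cancel_right]
  have e3 : ⁅x 5 1, d⁆ = n2 x 1 * f * (n2 x 1)⁻¹ * y 3 (σ b') := by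
    rw [← n5, ← nn_conj hC d, ← conjugate_commutatorElement, ← r1, e2, ← n_y3 hT]
    group
  obtain ⟨n, hn⟩ := ex_tr hT.ds.quad (b * 1)
  have e4 : ⁅y 3 b, y 5 1⁆ = x 4 n := hT.ds.s2 3 (by decide) b 1 n hn
  rw [r5] at e4
  rw [r1] at e1
  have hf' := star2 hC hT hf
  obtain ⟨c, e5⟩ := hT.l3.l2 _ (inv_mem hd) _ hf'
  generalize n2 x 1 * f * (n2 x 1)⁻¹ = f' at e3 hf' e5
  have c1 := cS hT (W2R hT hd) (y3S hC hT (σ b'))
  have c2 := cS hT (W4R hT hf') (mul_mem (y3S hC hT (σ b')) (y3S hC hT b))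
  have e6 : n2 x 1 * e * (n2 x 1)⁻¹ * y 3 0 * 1 = d * y 3 (c + (σ b' + b)) * (f' * (x 4 n * e)) := by
    rw [y_zero hT (by decide), mul_one, mul_one, n6,
      show x 5 1 * x 1 1 * x 5 1 * e * (x 5 1 * x 1 1 * x 5 1)⁻¹ =
        x 5 1 * (x 1 1 * (x 5 1 * e * (x 5 1)⁻¹) * (x 1 1)⁻¹) * (x 5 1)⁻¹ by group, c5,
      show x 1 1 * e * (x 1 1)⁻¹ = ⁅x 1 1, e⁆ * e by simp only [commutatorElement_def]; group, e1,
      show x 5 1 * (d * y 3 b * e) * (x 5 1)⁻¹ = ⁅x 5 1, d⁆ * d * (⁅y 3 b, x 5 1⁆⁻¹ * y 3 b) *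
        (x 5 1 * e * (x 5 1)⁻¹) by simp only [commutatorElement_def]; group, c5, e3, e4,
      inv_eq_of_mul_eq_one_right (x_sq hC 4 n), ← cS hT (W4R hT (x4W hC hT n)) (y3S hC hT b),
      mul_assoc f', c1, hT.ds.add 3 (by decide), hT.ds.add 3 (by decide), ← e5,
      show d * (⁅d⁻¹, f'⁆ * (y 3 (σ b') * y 3 b)) * (f' * (x 4 n * e)) =
        d * ⁅d⁻¹, f'⁆ * (y 3 (σ b') * y 3 b * f') * (x 4 n * e) by group, c2]
    simp only [commutatorElement_def]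
    group
  rw [(uq hC hT he' hd (one_mem _) (mul_mem hf' (mul_mem (x4W hC hT n) he)) e6).1]
  exact ⟨hd, b, r1 ▸ e1⟩

/-- the coordinate -/
theorem exists_s {p : G} (hp : p ∈ Yh 4) (hp' : p ∈ W4) (hl : p * t * p⁻¹ = t * x 4 1) :
    ∃ (s : G → A) (ψ : A → G), (∀ a, Rl y W2 a p (ψ a)) ∧ (∀ a u, s (ψ a * x 2 u) = a) ∧
      ∀ e ∈ W2, ∃ u, e = ψ (s e) * x 2 u := by
  choose ψ h1 h2 using fun a => hb.l3 a p hp'
  have hψ : ∀ a, Rl y W2 a p (ψ a) := fun a => ⟨h1 a, h2 a⟩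
  have hq := hT.ds.quad
  have hi : Function.Injective fun z : A × F =>
      (⟨ψ z.1 * x 2 z.2, mul_mem (h1 _) (x2W hT _)⟩ : W2) := by
    rintro ⟨a, u⟩ ⟨a', u'⟩ h
    have h : ψ a * x 2 u = ψ a' * x 2 u' := congrArg Subtype.val h
    obtain ⟨w, hw⟩ := (hψ a).add hC hT hb (hψ a')
    obtain ⟨c, hc⟩ := (hC.kp.memX 2 _).1 (hT.l3.sq _ (h1 a'))
    rw [eq_mul_inv_of_mul_eq h, inv_eq_of_mul_eq_one_right (x_sq hC 2 u), ← mul_assoc, ← mul_assoc, hc,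
      ← hC.mod.pin.add, ← hC.mod.pin.add, ← hC.mod.pin.add] at hw
    have e : a = a' := by linear_combination hw.inj hC hT hp hp' hl - aa hq a'
    subst e
    exact Prod.ext rfl (x_inj hC (mul_left_cancel h))
  haveI : Finite A := Nat.finite_of_card_ne_zero (by
    rw [hq.card]; exact pow_ne_zero _ Nat.card_pos.ne')
  have hs := (hi.bijective_of_nat_card_le (by
    rw [Nat.card_prod, hq.card, hT.l3.card]; exact le_of_eq (pow_succ _ _))).2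
  classical
  refine ⟨fun e => if h : e ∈ W2 then (Function.surjInv hs ⟨e, h⟩).1 else 0, ψ, hψ, fun a u => ?_,
    fun e he => ⟨(Function.surjInv hs ⟨e, he⟩).2, ?_⟩⟩
  · simp only [dif_pos (mul_mem (h1 a) (x2W hT u))]
    exact congrArg Prod.fst (hi (a₂ := (a, u)) (Function.surjInv_eq hs _))
  · simp only [dif_pos he]
    exact (congrArg Subtype.val (Function.surjInv_eq hs ⟨e, he⟩)).symm

theorem main : ∃ s, Lv4 L x t j σ y W2 W4 s := by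
  have hq := hT.ds.quad
  obtain ⟨p, hp, hl⟩ := hT.hl.surj 4 (by decide) 1
  have hpS := (hT.hl.mem 4 (by decide) p).1 hp
  have hp' : p ∈ W4 := (hT.l3.sw p).2
    (hT.l3.le ((hT.hl.mem 2 (by decide) _).2 (hC.kb.hatN 1 1 4 p hpS)))
  have hpp : p * p = x 4 1 := by
    obtain ⟨-, -, ⟨a, h1, h2⟩, -⟩ := hpS
    rw [h2, one_mul, x_inj hC (mul_left_cancel (h1.symm.trans hl))]
  obtain ⟨s, ψ, hψ, s1, s2⟩ := exists_s hC hT hb hp hp' hl
  have cx : ∀ e ∈ W2, ∀ u, x 2 u * e = e * x 2 u := fun e he u => cS hT (W2R hT he) (x2S hC hT u)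
  have sR : ∀ {a d}, Rl y W2 a p d → ∀ u, s (d * x 2 u) = a := fun h u =>
    h.uniq hC hT (hψ _) ▸ s1 _ u
  have sψ : ∀ a, s (ψ a) = a := fun a => by simpa [x_zero hC] using s1 a 0
  have sx : ∀ e ∈ W2, ∀ u, s (e * x 2 u) = s e := fun e he u => by
    obtain ⟨w, hw⟩ := s2 e he
    rw [hw, mul_assoc, ← hC.mod.pin.add, s1, s1]
  have sadd : ∀ e ∈ W2, ∀ e' ∈ W2, s (e * e') = s e + s e' := fun e he e' he' => by
    obtain ⟨w, hw⟩ := s2 e he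
    obtain ⟨w', hw'⟩ := s2 e' he'
    obtain ⟨u, hu⟩ := (hψ (s e')).add hC hT hb (hψ (s e))
    have := sR hu (u + (w + w'))
    rw [mul_assoc, ← hC.mod.pin.add, ← add_assoc, ff hC, zero_add, hC.mod.pin.add, ← mul_assoc,
      mul_assoc (ψ _), ← cx _ (hψ _).1, ← mul_assoc, ← hw, mul_assoc, ← hw'] at this
    rw [this, add_comm]
  have ψ0 : ψ 0 = 1 := (hψ 0).uniq hC hT ⟨one_mem _, 0, by
    rw [y_zero hT (by decide), y_zero hT (by decide), commutatorElement_one_left, mul_one]⟩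
  have s0 : ∀ u, s (x 2 u) = 0 := fun u => by simpa [ψ0] using s1 0 u
  have sinv : ∀ e ∈ W2, s e⁻¹ = s e := fun e he => by
    have := sadd e he _ (inv_mem he)
    rw [mul_inv_cancel, ← x_zero hC 2, s0] at this
    linear_combination -this - aa hq (s e)
  have t3 : ∀ b, ∃ b', t * y 3 b * t⁻¹ = y 3 b' := fun b => ⟨_, hT.ds.conj 3 (by decide) b⟩
  have sconj : ∀ e ∈ W2, s (t * e * t⁻¹) = σ (s e) := fun e he => by
    obtain ⟨w, hw⟩ := s2 e he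
    obtain ⟨n, hn⟩ := ex_nm hq (σ (s e))
    have h1 := (hψ (s e)).conj (hT.ds.conj 1 (by decide) _) t3 (ht2 hC hT (hψ _).1)
    have h2 : t * p * t⁻¹ = x 4 1 * p :=
      calc t * p * t⁻¹ = t⁻¹ * (p * t * p⁻¹) * p := by rw [t_inv hC]; group
        _ = x 4 1 * p := by rw [hl]; group
    rw [h2] at h1
    rw [hw, show t * (ψ (s e) * x 2 w) * t⁻¹ = t * ψ (s e) * t⁻¹ * (t * x 2 w * t⁻¹) by group,
      (hC.kb.tL _ (hC.kb.xL 2 w)).eq, mul_inv_cancel_right, ← hw,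
      h1.uniq hC hT ((rl_x4 hC hT hn 1).mul hC hT (x4W hC hT 1) (hψ _)), cx _ (hψ _).1, mul_assoc,
      ← hC.mod.pin.add, s1]
  have h3 : ∀ {h α β}, h ∈ HH x L → Tor x h α β → ∀ b, ∃ b', h * y 3 b * h⁻¹ = y 3 b' :=
    fun hh hτ b => ⟨_, hT.ds.tor _ hh.1 _ _ hτ 3 (by decide) b⟩
  have h4 : ∀ {h α}, h ∈ HH x L → Tor x h α 1 → ∀ e ∈ W4, h * e * h⁻¹ = e := fun {h α} hh hτ e he => by
    have := memT hC hh (i := 4) fun a => by simpa [wt2, wt3, wt4] using hτ 4 a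
    rw [mem_centralizer_iff.1 (hT.l3.four ▸ he : e ∈ R ⊓ C[TT x L 4]).2 h this, mul_inv_cancel_right]
  have h1 : ∀ {h α β}, h ∈ HH x L → Tor x h α β → ∀ a, h * y 1 a * h⁻¹ = y 1 (j α * a) :=
    fun hh hτ a => hT.ds.tor _ hh.1 _ _ hτ 1 (by decide) a
  have stor : ∀ h ∈ HH x L, ∀ r : Fˣ, (∀ a, h * x 2 a * h⁻¹ = x 2 (r ^ 2 * a)) → ∀ e ∈ W2,
      s (h * e * h⁻¹) = j r * s e := fun h hh r hr e he => by
    obtain ⟨k, hk, hτ⟩ := hC.kp.tor r 1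
    have k2 : ∀ a, k * x 2 a * k⁻¹ = x 2 (r ^ 2 * a) := fun a => by simpa [wt2, wt3, wt4] using hτ 2 a
    have hm := memT hC (mul_mem (inv_mem hk) hh) (i := 2) fun a => by
      rw [show k⁻¹ * h * x 2 a * (k⁻¹ * h)⁻¹ = k⁻¹ * (h * x 2 a * h⁻¹) * k by group, hr, ← k2]; group
    have hc := mem_centralizer_iff.1 (hT.l3.two ▸ he : e ∈ R ⊓ C[TT x L 2]).2 _ hm
    obtain ⟨w, hw⟩ := s2 e he
    have h5 := (hψ (s e)).conj (h1 hk hτ _) (h3 hk hτ) (hH2 hC hT hk (hψ _).1)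
    rw [h4 hk hτ p hp'] at h5
    rw [show h * e * h⁻¹ = k * (k⁻¹ * h * e) * h⁻¹ by group, hc, ← sR h5 (r ^ 2 * w), ← k2]
    congr 1
    nth_rewrite 1 [hw]
    group
  have rone : ∀ e ∈ W2, Rl y W2 1 (n2 x 1 * e * (n2 x 1)⁻¹) e := fun e he => by
    simpa only [nn_conj hC] using rl_one hC hT hb (star2 hC hT he)
  have sp : s (n2 x 1 * p * (n2 x 1)⁻¹) = 1 := by
    simpa [x_zero hC] using sR (rl_one hC hT hb hp') 0
  choose D d1 d2 using fun a b => hb.l3 a _ (star2 hC hT (hψ b).1)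
  have hD : ∀ a b, Rl y W2 a (n2 x 1 * ψ b * (n2 x 1)⁻¹) (D a b) := fun a b => ⟨d1 a b, d2 a b⟩
  have hm : ∀ a, ∀ e ∈ W2, ∀ d, Rl y W2 a (n2 x 1 * e * (n2 x 1)⁻¹) d → s d = s (D a (s e)) :=
    fun a e he d hd => by
      obtain ⟨w, hw⟩ := s2 e he
      obtain ⟨n, hn⟩ := ex_nm hq a
      have := (hD a (s e)).mul hC hT (star2 hC hT (hψ _).1) (rl_x4 hC hT hn w)
      rw [← n_x2 hC w, show ∀ n a b : G, n * a * n⁻¹ * (n * b * n⁻¹) = n * (a * b) * n⁻¹ from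
        fun n a b => by group, ← hw] at this
      rw [hd.uniq hC hT this, sx _ (d1 _ _)]
  choose Z hZ using fun a b => hT.l3.l2 _ (hψ a).1 _ (star2 hC hT (hψ b).1)
  have hz : ∀ e ∈ W2, ∀ e' ∈ W2, ⁅e, n2 x 1 * e' * (n2 x 1)⁻¹⁆ = y 3 (Z (s e) (s e')) :=
    fun e he e' he' => by
      obtain ⟨w, hw⟩ := s2 e he
      obtain ⟨w', hw'⟩ := s2 e' he'
      have c1 := cS hT (W4R hT (star2 hC hT he')) (x2S hC hT w)
      have c2 := cS hT (W2R hT (inv_mem (hψ (s e)).1)) (x4S hC hT w')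
      have e1 : n2 x 1 * e' * (n2 x 1)⁻¹ = n2 x 1 * ψ (s e') * (n2 x 1)⁻¹ * x 4 w' := by
        rw [← n_x2 hC w']
        nth_rewrite 1 [hw']
        group
      rw [e1] at c1 ⊢
      rw [← hZ, ← comm_cen c1 c2, ← hw]
  choose q hq2 using fun a => (hC.kp.memX 2 _).1 (hT.l3.sq _ (hψ a).1)
  have hsq : ∀ e ∈ W2, e * e = x 2 (q (s e)) := fun e he => by
    obtain ⟨w, hw⟩ := s2 e he
    rw [← hq2]
    nth_rewrite 1 2 [hw]
    rw [mul_assoc, ← mul_assoc (x 2 w), cx _ (hψ _).1, mul_assoc, x_sq hC, mul_one]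
  have hsq4 : ∀ e ∈ W2, n2 x 1 * e * (n2 x 1)⁻¹ * (n2 x 1 * e * (n2 x 1)⁻¹) = x 4 (q (s e)) :=
    fun e he => by rw [← n_x2 hC, ← hsq e he]; group
  have key : ∀ a b n, j n = a * σ a → q (s (D a b)) = n * q b ∧ Z (s (D a b)) b = σ a * j (q b) :=
    fun a b n hn => by
      obtain ⟨k1, k2⟩ := (hD a b).sq hC hT (star2 hC hT (hψ b).1) hn (hsq4 _ (hψ b).1)
      rw [hsq _ (d1 a b)] at k1
      rw [hz _ (inv_mem (d1 a b)) _ (hψ b).1, sinv _ (d1 a b)] at k2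
      rw [sψ] at k1 k2
      exact ⟨x_inj hC k1, y_inj hT k2⟩
  have m1 : ∀ a a' b, s (D (a + a') b) = s (D a b) + s (D a' b) := fun a a' b => by
    obtain ⟨u, hu⟩ := (hD a b).add hC hT hb (hD a' b)
    rw [(hD _ b).uniq hC hT hu, sx _ (mul_mem (d1 _ _) (d1 _ _)), sadd _ (d1 _ _) _ (d1 _ _), add_comm]
  have m2 : ∀ a b b', s (D a (b + b')) = s (D a b) + s (D a b') := fun a b b' => by
    have := (hD a b).mul hC hT (star2 hC hT (hψ _).1) (hD a b')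
    rw [show ∀ n a b : G, n * a * n⁻¹ * (n * b * n⁻¹) = n * (a * b) * n⁻¹ from
      fun n a b => by group] at this
    have := hm a _ (mul_mem (hψ b).1 (hψ b').1) _ this
    rwa [sadd _ (d1 _ _) _ (d1 _ _), sadd _ (hψ _).1 _ (hψ _).1, sψ, sψ, eq_comm] at this
  have z1 : ∀ a a' b, Z (a + a') b = Z a b + Z a' b := fun a a' b => by
    have := hz _ (mul_mem (hψ a).1 (hψ a').1) _ (hψ b).1
    rw [sadd _ (hψ _).1 _ (hψ _).1, sψ, sψ, sψ, show ∀ a b c : G, ⁅a * b, c⁆ = a * ⁅b, c⁆ * a⁻¹ * ⁅a, c⁆ from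
      fun a b c => by simp only [commutatorElement_def]; group, hZ, hZ,
      ← cS hT (W2R hT (hψ a).1) (y3S hC hT _), mul_inv_cancel_right, ← hT.ds.add 3 (by decide)] at this
    rw [← y_inj hT this, add_comm]
  obtain ⟨a1, a2, a3⟩ := alg hq (fun a b => s (D a b)) Z q m1 m2
    (fun r a b => by
      rcases eq_or_ne r 0 with rfl | hr
      · have := m1 0 0 b
        rw [add_zero] at this
        simpa using this
      obtain ⟨k, hk, hτ⟩ := hC.kp.tor (Units.mk0 r hr) 1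
      have h5 := (hD a b).conj (h1 hk hτ _) (h3 hk hτ) (hH2 hC hT hk (d1 _ _))
      rw [h4 hk hτ _ (star2 hC hT (hψ b).1)] at h5
      exact ((hD _ b).uniq hC hT h5 ▸
        stor k hk (Units.mk0 r hr) (fun a => by simpa [wt2, wt3, wt4] using hτ 2 a) _ (d1 a b) :))
    (fun r a b => by
      rcases eq_or_ne r 0 with rfl | hr
      · have := m2 a 0 0
        rw [add_zero] at this
        simpa using this
      obtain ⟨k, hk, hτ⟩ := hC.kp.tor 1 (Units.mk0 r hr ^ 2)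
      have h5 := (hD a b).conj (h1 hk hτ _) (h3 hk hτ) (hH2 hC hT hk (d1 _ _))
      have hk' := hC.kb.nH 1 k hk
      rw [Units.val_one, map_one, one_mul, show k * (n2 x 1 * ψ b * (n2 x 1)⁻¹) * k⁻¹ = n2 x 1 *
        (n2 x 1 * k * (n2 x 1)⁻¹ * ψ b * (n2 x 1 * k * (n2 x 1)⁻¹)⁻¹) * (n2 x 1)⁻¹ by
          rw [show ∀ n c : G, n * (n * k * n⁻¹ * c * (n * k * n⁻¹)⁻¹) * n⁻¹ =
            n * n * k * (n⁻¹ * c * n) * k⁻¹ * (n * n)⁻¹ from fun n c => by group, hC.kb.nsq, n_inv hC]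
          group] at h5
      have h6 := hm a _ (hH2 hC hT hk' (hψ b).1) _ h5
      rw [stor k hk (Units.mk0 r hr) (fun a => by simpa [wt2, wt3, wt4] using hτ 2 a) _ (d1 a b),
        stor _ hk' (Units.mk0 r hr) (fun a => by
          have : k * x 4 a * k⁻¹ = x 4 (r ^ 2 * a) := by simpa [wt2, wt3, wt4] using hτ 4 a
          rw [← n_x4 hC a, Units.val_mk0, ← n_x4 hC, ← this]; group) _ (hψ b).1, sψ] at h6
      exact h6.symm)
    (fun a => by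
      have := hm a _ ((hT.l3.sw p).1 hp') _ (by rw [nn_conj hC]; exact hψ a)
      rw [sp, sψ] at this
      exact this.symm)
    (fun b => by rw [(hD 1 b).uniq hC hT (rone _ (hψ b).1), sψ])
    (fun a b => by
      have h5 := (hD a b).conj (hT.ds.conj 1 (by decide) _) t3 (ht2 hC hT (d1 _ _))
      have c := hC.kb.tL _ (hC.kb.nL 1)
      rw [show t * (n2 x 1 * ψ b * (n2 x 1)⁻¹) * t⁻¹ = n2 x 1 * (t * ψ b * t⁻¹) * (n2 x 1)⁻¹ by
        rw [← mul_assoc, ← mul_assoc, c.eq, mul_assoc, c.inv_inv.symm.eq]; group] at h5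
      have h6 := hm _ _ (ht2 hC hT (hψ b).1) _ h5
      rw [sconj _ (d1 _ _), sconj _ (hψ b).1, sψ] at h6
      exact h6.symm)
    z1
    (fun r a b => by
      rcases eq_or_ne r 0 with rfl | hr
      · have := z1 0 0 b
        rw [add_zero] at this
        simpa using this
      obtain ⟨k, hk, hτ⟩ := hC.kp.tor (Units.mk0 r hr) 1
      have h5 := hz _ (hH2 hC hT hk (hψ a).1) _ (hψ b).1
      rw [stor k hk (Units.mk0 r hr) (fun a => by simpa [wt2, wt3, wt4] using hτ 2 a) _ (hψ a).1, sψ, sψ,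
        ← h4 hk hτ _ (star2 hC hT (hψ b).1), ← conjugate_commutatorElement, hZ,
        hT.ds.tor _ hk.1 _ _ hτ 3 (by decide)] at h5
      simpa [wt2, wt3, wt4] using (y_inj hT h5).symm)
    (fun a b => by
      have h5 := congrArg (fun g => n2 x 1 * g * (n2 x 1)⁻¹) (hZ a b)
      simp only [conjugate_commutatorElement, nn_conj hC, n_y3 hT] at h5
      rw [← commutatorElement_inv, hZ, inv_eq_of_mul_eq_one_right (y_sq hT (by decide) _)] at h5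
      exact y_inj hT h5)
    (by
      have := hsq4 _ ((hT.l3.sw p).1 hp')
      rw [nn_conj hC, hpp, sp] at this
      exact (x_inj hC this).symm)
    (fun a b => by
      obtain ⟨n, hn⟩ := ex_nm hq a
      rw [(key a b n hn).1, map_mul, hn])
    (fun a b => let ⟨n, hn⟩ := ex_nm hq a; (key a b n hn).2)
  refine ⟨s, sadd, fun e he => ⟨fun h => ?_, fun h => ?_⟩, fun a => ⟨ψ a, (hψ a).1, sψ a⟩, sconj,
    fun h hh α β hτ r hr e he => ?_, fun e he n hn => ?_, fun e he e' he' => ?_,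
    fun a e' he' e he b h => ?_⟩
  · obtain ⟨w, hw⟩ := s2 e he
    rw [h, ψ0, one_mul] at hw
    exact (hC.kp.memX 2 e).2 ⟨w, hw⟩
  · obtain ⟨w, rfl⟩ := (hC.kp.memX 2 e).1 h
    exact s0 w
  · have h0 : r ≠ 0 := by
      rintro rfl
      exact (wt α β 2).ne_zero (by rw [← hr]; simp)
    exact stor h (hC.kb.torH h hh α β hτ) (Units.mk0 r h0) (fun a => by
      rw [Units.val_mk0, hr]; exact hτ 2 a) e he
  · rw [hsq e he, j_inj hC hT ((a1 _).trans hn.symm)]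
  · have := hz e he _ ((hT.l3.sw e').1 he')
    rwa [nn_conj hC, a2] at this
  · rw [hm a _ ((hT.l3.sw e').1 he') e (by rw [nn_conj hC]; exact ⟨he, b, h⟩)]
    exact a3 _ _

omit hC hT hb in
theorem lv4a : Lv4aStmt.{u, v} := by
  intro F _ _ G _ _ L x t hC A _ j σ y Yh S P R W2 W4 hT hb
  exact main hC hT hb

end Cfsg.Agent.H40.S4Lv4a
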