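import Cfsg.Agent.H98.GbG
import Cfsg.Agent.H11.Irr

/-! Project GB, piece DEC. -/

set_option autoImplicit false
open Cfsg
open scoped ComplexConjugate

namespace Cfsg.Agent.H40.GbDec

open Cfsg.Agent.H98.GB Cfsg.Agent.H11

universe u

section
variable {G : Type u} [Group G] [Fintype G]

/-- convolution -/
noncomputable def cv (a b : G → ℂ) : G → ℂ := fun g => ∑ h, a h * b (h⁻¹ * g)

theorem cv_irr (χ : IrrCharacter G) {f : G → ℂ} (hf : IsClassFunction G f) (g : G) :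
    cv χ.1 f g = (Nat.card G : ℂ) * classInner f χ.1 / χ.1 1 * χ.1 g := by
  have h1 := sum_classFun_mul_irr_mul χ.2 (isClassFunction_comp_inv hf) g
  have h2 : ∑ k, f k⁻¹ * χ.1 k = (Nat.card G : ℂ) * classInner f χ.1 := by
    rw [card_mul_classInner]
    exact Fintype.sum_equiv (Equiv.inv G) _ _ fun k => by
      simp [conj_apply (irr_isCharacter χ)]
  rw [← h2, ← h1]
  refine (Fintype.sum_equiv (Equiv.mulLeft g) _ _ fun k => ?_).symm
  have := isClassFunction_of_irr χ.2 (k * g) g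
  rw [show g * (k * g) * g⁻¹ = g * k by group] at this
  simp [this, mul_comm]

theorem cv_assoc (a b f : G → ℂ) : cv a (cv b f) = cv (cv a b) f := by
  ext g
  simp only [cv, Finset.mul_sum, Finset.sum_mul]
  rw [Finset.sum_comm (f := fun m h => a h * b (h⁻¹ * m) * f (m⁻¹ * g))]
  refine Finset.sum_congr rfl fun h _ => Fintype.sum_equiv (Equiv.mulLeft h) _ _ fun k => ?_
  simp [mul_assoc]

theorem eq_sum_cv (f : G → ℂ) :
    f = ∑ ψ : IrrCharacter G, (ψ.1 1 / (Nat.card G : ℂ)) • cv ψ.1 f := by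
  ext g
  have h0 := card_ne_zero G
  have : ∀ ψ : IrrCharacter G, ((ψ.1 1 / (Nat.card G : ℂ)) • cv ψ.1 f) g =
      ∑ h, ψ.1 1 * ψ.1 h * ((Nat.card G : ℂ)⁻¹ * f (h⁻¹ * g)) := fun ψ => by
    simp only [Pi.smul_apply, smul_eq_mul, cv, Finset.mul_sum]
    exact Finset.sum_congr rfl fun h _ => by ring
  rw [Finset.sum_apply, Finset.sum_congr rfl fun ψ _ => this ψ, Finset.sum_comm]
  simp only [← Finset.sum_mul, sum_degree_mul_apply]
  rw [Finset.sum_eq_single 1 (fun h _ hh => by rw [regChar_of_ne_one hh, zero_mul]) (by simp),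
    regChar_one, inv_one, one_mul, ← mul_assoc, mul_inv_cancel₀ h0, one_mul]

theorem cv_irr_irr {χ ψ : IrrCharacter G} (h : χ ≠ ψ) : cv χ.1 ψ.1 = 0 := by
  ext g
  rw [cv_irr χ (isClassFunction_of_irr ψ.2),
    classInner_irr_of_ne ψ.2 χ.2 fun e => h (Subtype.ext e.symm)]
  simp

theorem cv_tw {l : G →* ℂˣ} {a f : G → ℂ} (ha : IsClassFunction G a) (hf : Tw l f) :
    Tw l (cv a f) := by
  intro x g
  simp only [cv, Finset.mul_sum]
  refine (Fintype.sum_equiv (MulAut.conj x).toEquiv _ _ fun k => ?_).symm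
  have := hf x (k⁻¹ * g)
  simp only [MulEquiv.toEquiv_eq_coe, EquivLike.coe_coe, MulAut.conj_apply, ha k x]
  rw [show (x * k * x⁻¹)⁻¹ * (x * g * x⁻¹) = x * (k⁻¹ * g) * x⁻¹ by group, this]
  ring

theorem cv_inE (ψ : IrrCharacter G) (f : G → ℂ) : InE {ψ} (cv ψ.1 f) := by
  intro χ hχ g
  show cv χ.1 (cv ψ.1 f) g = 0
  rw [cv_assoc, cv_irr_irr hχ]
  simp [cv]

theorem cv_adj (ψ : IrrCharacter G) (f f' : G → ℂ) :
    classInner (cv ψ.1 f) f' = classInner f (cv ψ.1 f') := by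
  simp only [classInner_def, cv, map_sum, map_mul, conj_apply (irr_isCharacter ψ), Finset.sum_mul]
  congr 1
  simp only [Finset.mul_sum]
  rw [Finset.sum_comm, Finset.sum_comm (f := fun g h => f g * (ψ.1 h⁻¹ * conj (f' (h⁻¹ * g))))]
  refine Fintype.sum_equiv (Equiv.inv G) _ _ fun h => ?_
  refine (Fintype.sum_equiv (Equiv.mulLeft h) _ _ fun k => ?_).symm
  simp only [Equiv.inv_apply, inv_inv, Equiv.coe_mulLeft, inv_mul_cancel_left]
  ring

end

theorem dec : DECStmt.{u} := by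
  intro G _ _
  refine ⟨fun l S f hf => ?_, fun S T f f' hf hf' hd => ?_, fun χ ψ hψ g => ?_, fun S f hf => ?_⟩
  · rw [eq_sum_cv f]
    refine Submodule.sum_mem _ fun ψ _ => Submodule.smul_mem _ _ ?_
    by_cases h : ψ ∈ S
    · exact Submodule.subset_span ⟨ψ, h, cv_tw (isClassFunction_of_irr ψ.2) hf.1, cv_inE ψ f⟩
    · rw [show cv ψ.1 f = 0 from funext (hf.2 ψ h)]; exact zero_mem _
  · rw [eq_sum_cv f, classInner_sum_left]
    refine Finset.sum_eq_zero fun ψ _ => ?_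
    rw [classInner_smul_left]
    by_cases h : ψ ∈ S
    · rw [cv_adj, show cv ψ.1 f' = 0 from funext (hf' ψ (Set.disjoint_left.1 hd h))]
      simp [classInner_def]
    · rw [show cv ψ.1 f = 0 from funext (hf ψ h)]
      simp [classInner_def]
  · exact congrFun (cv_irr_irr hψ) g
  · refine ⟨fun h χ hχ => ?_, fun h χ hχ g => ?_⟩
    · have h1 : cv χ.1 f 1 = 0 := h χ hχ 1
      rw [cv_irr χ hf, div_mul_cancel₀ _ (irr_apply_one_ne_zero χ.2)] at h1
      exact (mul_eq_zero.1 h1).resolve_left (card_ne_zero G)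
    · show cv χ.1 f g = 0
      rw [cv_irr χ hf, h χ hχ]; simp

end Cfsg.Agent.H40.GbDec
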