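import Cfsg.Agent.H50.E72Defs
import Cfsg.Agent.H52.FStar

/-! Project E72 (S5935), piece OUT. -/

set_option autoImplicit false

namespace Cfsg.Agent.H40.E72Out

open Cfsg Subgroup

universe u

theorem out : Cfsg.Agent.H50.E72.OutStmt.{u} := by
  intro H _ _ L _ e _
  haveI := H52.fstar_normal (G := H)
  let f : H →* MulAut L := (MulAut.congr e).toMonoidHom.comp MulAut.conjNormal
  have hf : ∀ x : generalizedFittingSubgroup H, f x = MulAut.conj (e x) := fun x => by
    ext l
    obtain ⟨y, rfl⟩ := e.surjective l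
    simp only [f, MonoidHom.comp_apply, MulEquiv.coe_toMonoidHom, MulAut.congr_apply,
      MulEquiv.trans_apply, MulEquiv.symm_apply_apply, MulAut.conj_apply, ← map_inv, ← map_mul]
    rfl
  refine ⟨(QuotientGroup.mk' (Inn L)).comp f, ?_⟩
  rw [← MonoidHom.comap_ker, QuotientGroup.ker_mk']
  refine le_antisymm ?_ fun g hg => ⟨e ⟨g, hg⟩, (hf ⟨g, hg⟩).symm⟩
  rintro g ⟨l, hl⟩
  obtain ⟨x, rfl⟩ := e.surjective l
  have h1 : MulAut.conjNormal (H := generalizedFittingSubgroup H) (g * (x : H)⁻¹) = 1 :=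
    (MulAut.congr e).injective ((show f _ = 1 by
      rw [map_mul, map_inv, hf, hl, mul_inv_cancel]).trans (map_one _).symm)
  refine (mul_mem_cancel_right (inv_mem x.2)).1 (H52.centralizer_fstar_le
    (mem_centralizer_iff.2 fun y hy => (mul_inv_eq_iff_eq_mul.1 ?_).symm))
  exact (MulAut.conjNormal_apply _ ⟨y, hy⟩).symm.trans (by rw [h1]; rfl)

end Cfsg.Agent.H40.E72Out
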