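import Cfsg.Agent.H50.E83Defs

/-! Project E83, piece FIN. -/

set_option autoImplicit false

namespace Cfsg.Agent.H40.E83Fin

open Cfsg.Agent.H50.E83 Module QuaternionGroup
open scoped Matrix

/-- equality up to sign -/
def PM (X Y : M16) : Prop := X = Y ∨ X = -Y

theorem PM.sq {X Y : M16} (h : PM X Y) : X * X = Y * Y := by
  rcases h with rfl | rfl
  · rfl
  · exact neg_mul_neg _ _

theorem PM.symm {X Y : M16} (h : PM X Y) : PM Y X := by
  rcases h with rfl | rfl
  · exact Or.inl rfl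
  · exact Or.inr (neg_neg _).symm

theorem PM.trans {X Y Z : M16} (h : PM X Y) (k : PM Y Z) : PM X Z := by
  rcases h with rfl | rfl <;> rcases k with rfl | rfl <;> simp [PM]

theorem PM.mul {X Y Z W : M16} (h : PM X Y) (k : PM Z W) : PM (X * Z) (Y * W) := by
  rcases h with rfl | rfl <;> rcases k with rfl | rfl <;> simp [PM]

theorem nul_eq (X : M16) : nul X = 16 - X.rank := by
  have := LinearMap.finrank_range_add_finrank_ker (Matrix.toLin' X)
  rw [Module.finrank_fin_fun] at this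
  rw [nul, Matrix.rank, ← Matrix.toLin'_apply']
  omega

theorem nul_nonneg (X : M16) : 0 ≤ nul X := Int.natCast_nonneg _

theorem nul_left {B : M16} (h : IsUnit B.det) (X : M16) : nul (B * X) = nul X := by
  rw [nul_eq, nul_eq, Matrix.rank_mul_eq_right_of_isUnit_det _ _ h]

theorem nul_right {B : M16} (h : IsUnit B.det) (X : M16) : nul (X * B) = nul X := by
  rw [nul_eq, nul_eq, Matrix.rank_mul_eq_left_of_isUnit_det _ _ h]

theorem nul_neg (X : M16) : nul (-X) = nul X := by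
  rw [nul, nul, map_neg, LinearMap.ker_neg]

theorem nul_zero : nul 0 = 16 := by simp [nul_eq]

theorem nul_two : nul (1 + 1) = 0 := by
  have h3 : (1 + 1 : K) = -1 := by
    have : ((3 : ℕ) : K) = 0 := CharP.cast_eq_zero K 3
    linear_combination this
  have : (1 + 1 : M16) = -1 := by
    calc (1 + 1 : M16) = (1 + 1 : K) • (1 : M16) := by rw [add_smul, one_smul]
      _ = -1 := by rw [h3, neg_smul, one_smul]
  rw [this, nul_neg, nul_eq, Matrix.rank_one]
  simp

theorem pow4 {X : M16} (h : PM (X * X) 1) : X ^ 4 = 1 := by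
  have := h.sq
  rw [mul_one] at this
  rw [← this]
  noncomm_ring

section Abs

variable {W : Type} [AddCommGroup W] [Module K W]

/-- restriction to an invariant subspace -/
noncomputable def res (E : Submodule K W) (S : Subring (End K W))
    (h : ∀ M ∈ S, ∀ x ∈ E, M x ∈ E) : S →+* End K E where
  toFun M := M.1.restrict (h M.1 M.2)
  map_one' := LinearMap.ext fun _ => rfl
  map_mul' _ _ := LinearMap.ext fun _ => rfl
  map_zero' := LinearMap.ext fun _ => rfl
  map_add' _ _ := LinearMap.ext fun _ => rfl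

theorem div4E [FiniteDimensional K W] (D : Div4Stmt) {A I J I' J' : End K W} (c1 : Commute A I)
    (c2 : Commute A J) (c3 : Commute A I') (c4 : Commute A J') (h1 : I * I = -1)
    (h2 : J * J = -1) (h3 : I * J * (I * J) = -1) (h4 : A * I' * (A * I') = -1)
    (h5 : A * J' * (A * J') = -1) (h6 : A * (I' * J') * (A * (I' * J')) = -1) (d1 : Commute I I')
    (d2 : Commute I J') (d3 : Commute J I') (d4 : Commute J J') :
    4 ∣ finrank K (LinearMap.ker (A - 1)) := by
  let S : Subring (End K W) := Subring.centralizer {A}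
  have hS : ∀ {M}, Commute A M → M ∈ S := fun h => by
    rw [Subring.mem_centralizer_iff]
    rintro _ rfl
    exact h
  have hE : ∀ x, x ∈ LinearMap.ker (A - 1) ↔ A x = x := fun x => by
    simp [sub_eq_zero]
  let φ := res (LinearMap.ker (A - 1)) S fun M hM x hx => by
    rw [hE] at hx ⊢
    rw [← End.mul_apply, Subring.mem_centralizer_iff.1 hM A rfl, End.mul_apply, hx]
  have hA : φ ⟨A, hS (Commute.refl A)⟩ = 1 :=
    LinearMap.ext fun x => Subtype.ext ((hE _).1 x.2)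
  have k1 : ∀ x : S, x.1 * x.1 = -1 → φ x * φ x = -1 := fun x hx => by
    rw [← map_mul, show x * x = -1 from Subtype.ext hx, map_neg, map_one]
  have k2 : ∀ x : S, A * x.1 * (A * x.1) = -1 → φ x * φ x = -1 := fun x hx => by
    have := k1 (⟨A, hS (Commute.refl A)⟩ * x) hx
    rwa [map_mul, hA, one_mul] at this
  have k3 : ∀ x y : S, Commute x.1 y.1 → Commute (φ x) (φ y) := fun x y h =>
    (show Commute x y from Subtype.ext h).map φ
  exact D _ (φ ⟨I, hS c1⟩) (φ ⟨J, hS c2⟩) (φ ⟨I', hS c3⟩) (φ ⟨J', hS c4⟩) (k1 _ h1) (k1 _ h2)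
    (by rw [← map_mul]; exact k1 _ h3) (k2 _ h4) (k2 _ h5) (by rw [← map_mul]; exact k2 _ h6)
    (k3 _ _ d1) (k3 _ _ d2) (k3 _ _ d3) (k3 _ _ d4)

end Abs

theorem div4 (D : Div4Stmt) {A I J I' J' : M16} (c1 : Commute A I) (c2 : Commute A J)
    (c3 : Commute A I') (c4 : Commute A J') (h1 : I * I = -1) (h2 : J * J = -1)
    (h3 : I * J * (I * J) = -1) (h4 : A * I' * (A * I') = -1) (h5 : A * J' * (A * J') = -1)
    (h6 : A * (I' * J') * (A * (I' * J')) = -1) (d1 : Commute I I') (d2 : Commute I J')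
    (d3 : Commute J I') (d4 : Commute J J') : 4 ∣ nul (A - 1) := by
  obtain ⟨φ, hφ⟩ : ∃ φ : M16 →+* End K (Fin 16 → K), ∀ X, φ X = Matrix.toLin' X :=
    ⟨(Matrix.toLinAlgEquiv' : M16 ≃ₐ[K] _), fun _ => rfl⟩
  have k : ∀ {X : M16}, X = -1 → φ X = -1 := fun h => by rw [h, map_neg, map_one]
  have := div4E D (c1.map φ) (c2.map φ) (c3.map φ) (c4.map φ) (by simpa only [map_mul] using k h1)
    (by simpa only [map_mul] using k h2) (by simpa only [map_mul] using k h3)
    (by simpa only [map_mul] using k h4) (by simpa only [map_mul] using k h5)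
    (by simpa only [map_mul] using k h6) (d1.map φ) (d2.map φ) (d3.map φ) (d4.map φ)
  rw [← map_one φ, ← map_sub, hφ] at this
  exact Int.natCast_dvd_natCast.2 this

section

variable (lam : LamStmt) {L : Q3 → M16} (hL : LiftS L)
include hL

theorem pm_mul (g g' : Q3) : PM (L (g * g')) (L g * L g') := hL.2.1 g g'

theorem pm_one : PM (L 1) 1 := hL.2.2.1 1 (Or.inr (by decide))

theorem unit (g : Q3) : IsUnit (L g).det := by
  have := (pm_mul hL g⁻¹ g).symm.trans (by rw [inv_mul_cancel]; exact pm_one hL)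
  rcases this with h | h
  · exact Matrix.isUnit_det_of_left_inverse h
  · exact Matrix.isUnit_det_of_left_inverse (B := -L g⁻¹) (by rw [neg_mul, h, neg_neg])

theorem comm {g k : Q3} (c : g * k = k * g) (h : nul (L g - 1) ≠ nul (L g + 1)) :
    Commute (L g) (L k) := by
  rcases (pm_mul hL g k).symm.trans (c ▸ pm_mul hL k g) with e | e
  · exact e
  · refine absurd ?_ h
    rw [← nul_right (unit hL k), ← nul_left (unit hL k) (L g + 1), sub_mul, e, ← nul_neg]
    congr 1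
    noncomm_ring

include lam

theorem neg1 {g : Q3} (hg : PM (L (g * g)) 1) (ht : 2 * tsk (L g) = 16) : L g * L g = -1 := by
  have h := (pm_mul hL g g).symm.trans hg
  refine h.resolve_left fun e => ?_
  obtain ⟨h1, h2⟩ := lam _ (hL.1 g) (pow4 h)
  rw [e, nul_two] at h1 h2
  generalize nul (L g - 1) - nul (L g + 1) = t at h2
  have h3 : t ^ 2 = 32 := by omega
  have h4 : t ≤ 5 := by nlinarith
  have h5 : -5 ≤ t := by nlinarith
  nlinarith

theorem invB {g : Q3} (hg : g * g = 1) (ht : 2 * tsk (L g) = -16) :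
    L g * L g = 1 ∧ nul (L g - 1) = 8 ∧ nul (L g + 1) = 8 := by
  have h := (pm_mul hL g g).symm.trans (hg ▸ pm_one hL)
  obtain ⟨h1, h2⟩ := lam _ (hL.1 g) (pow4 h)
  rcases h with e | e
  · rw [e, nul_two] at h1 h2
    have h3 : (nul (L g - 1) - nul (L g + 1)) ^ 2 = 0 := by omega
    have h4 := pow_eq_zero_iff two_ne_zero |>.1 h3
    exact ⟨e, by omega, by omega⟩
  · rw [e, neg_add_cancel, nul_zero] at h1 h2
    have := sq_nonneg (nul (L g - 1) - nul (L g + 1))
    omega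

theorem typA {g : Q3} (hg : g * g * (g * g) = 1) (hb : 2 * tsk (L (g * g)) = -16)
    (ht : 2 * tsk (L g) = 16) :
    nul (L g - 1) + nul (L g + 1) = 8 ∧ (nul (L g - 1) - nul (L g + 1)) ^ 2 = 16 := by
  obtain ⟨b1, b2, b3⟩ := invB lam hL hg hb
  have h := pm_mul hL g g
  obtain ⟨h1, h2⟩ := lam _ (hL.1 g) (by rw [← b1, h.sq]; noncomm_ring)
  have h3 : nul (L g * L g + 1) = 8 := by
    rcases h.symm with e | e <;> rw [e]
    · exact b3
    · rw [← nul_neg, ← b2]
      congr 1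
      noncomm_ring
  omega

end

theorem fin (lam : LamStmt) (D : Div4Stmt) : FinStmt := by
  intro L hL
  have t16 : ∀ g, cls g ∈ [2, 3, 4] → cls (g * (a 2, 1, 1)) ∈ [2, 3, 4] → 2 * tsk (L g) = 16 := by
    intro g h1 h2
    rw [hL.2.2.2 g]
    simp only [List.mem_cons, List.not_mem_nil, or_false] at h1 h2
    rcases h1 with h1 | h1 | h1 <;> rcases h2 with h2 | h2 | h2 <;> rw [h1, h2] <;> rfl
  have tm : ∀ g, cls g = 1 → cls (g * (a 2, 1, 1)) = 1 → 2 * tsk (L g) = -16 := by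
    intro g h1 h2
    rw [hL.2.2.2 g, h1, h2]
    rfl
  have z1 : PM (L (a 2, 1, 1)) 1 := hL.2.2.1 _ (Or.inl rfl)
  have z2 : PM (L (1, a 2, a 2)) 1 := by
    have z3 : PM (L (a 2, a 2, a 2)) 1 := hL.2.2.1 _ (Or.inr (by decide))
    have := (pm_mul hL _ _).trans (z1.mul z3)
    rwa [mul_one, show ((a 2, 1, 1) * (a 2, a 2, a 2) : Q3) = (1, a 2, a 2) by decide] at this
  have n1 : ∀ g : Q3, (g * g = (a 2, 1, 1) ∨ g * g = (1, a 2, a 2)) ∧ cls g ∈ [2, 3, 4] ∧
      cls (g * (a 2, 1, 1)) ∈ [2, 3, 4] → L g * L g = -1 := fun g h =>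
    neg1 lam hL (by rcases h.1 with e | e <;> rw [e] <;> assumption) (t16 g h.2.1 h.2.2)
  have n2 : ∀ g k : Q3, (g * k * (g * k) = (a 2, 1, 1) ∨ g * k * (g * k) = (1, a 2, a 2)) ∧
      cls (g * k) ∈ [2, 3, 4] ∧ cls (g * k * (a 2, 1, 1)) ∈ [2, 3, 4] →
      L g * L k * (L g * L k) = -1 := fun g k h => (pm_mul hL g k).sq ▸ n1 _ h
  have tA : ∀ g : Q3, g * g * (g * g) = 1 ∧ cls (g * g) = 1 ∧ cls (g * g * (a 2, 1, 1)) = 1 ∧
      cls g ∈ [2, 3, 4] ∧ cls (g * (a 2, 1, 1)) ∈ [2, 3, 4] →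
      nul (L g - 1) + nul (L g + 1) = 8 ∧ (nul (L g - 1) - nul (L g + 1)) ^ 2 = 16 := fun g h =>
    typA lam hL h.1 (tm _ h.2.1 h.2.2.1) (t16 g h.2.2.2.1 h.2.2.2.2)
  have cm : ∀ g k : Q3, g * k = k * g ∧ g * g * (g * g) = 1 ∧ cls (g * g) = 1 ∧
      cls (g * g * (a 2, 1, 1)) = 1 ∧ cls g ∈ [2, 3, 4] ∧ cls (g * (a 2, 1, 1)) ∈ [2, 3, 4] →
      Commute (L g) (L k) := fun g k h => comm hL h.1 fun e => by
    have := (tA g h.2).2
    rw [e, sub_self] at this
    omega
  have c1 := cm (1, a 1, 1) (a 1, 1, 1) (by decide)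
  have c2 := cm (1, a 1, 1) (xa 0, 1, 1) (by decide)
  have c3 := cm (1, a 1, 1) (1, 1, a 1) (by decide)
  have c4 := cm (1, a 1, 1) (1, 1, xa 0) (by decide)
  have h1 := n1 (a 1, 1, 1) (by decide)
  have h2 := n1 (xa 0, 1, 1) (by decide)
  have h3 := n2 (a 1, 1, 1) (xa 0, 1, 1) (by decide)
  have h4 := n2 (1, a 1, 1) (1, 1, a 1) (by decide)
  have h5 := n2 (1, a 1, 1) (1, 1, xa 0) (by decide)
  have h6 := n2 (1, a 1, 1) ((1, 1, a 1) * (1, 1, xa 0)) (by decide)
  rw [(PM.mul (Or.inl rfl) (pm_mul hL _ _)).sq] at h6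
  have d1 := (cm (1, 1, a 1) (a 1, 1, 1) (by decide)).symm
  have d2 := (cm (1, 1, xa 0) (a 1, 1, 1) (by decide)).symm
  have d3 := (cm (1, 1, a 1) (xa 0, 1, 1) (by decide)).symm
  have d4 := (cm (1, 1, xa 0) (xa 0, 1, 1) (by decide)).symm
  have p := div4 D c1 c2 c3 c4 h1 h2 h3 h4 h5 h6 d1 d2 d3 d4
  have ng : ∀ {X Y : M16}, X * Y * (X * Y) = -1 → -X * Y * (-X * Y) = -1 := fun h => by
    rwa [neg_mul, neg_mul_neg]
  have q := div4 D c1.neg_left c2.neg_left c3.neg_left c4.neg_left h1 h2 h3 (ng h4) (ng h5) (ng h6)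
    d1 d2 d3 d4
  rw [← neg_add', nul_neg] at q
  obtain ⟨e1, e2⟩ := tA (1, a 1, 1) (by decide)
  have e3 := nul_nonneg (L (1, a 1, 1) - 1)
  have e4 := nul_nonneg (L (1, a 1, 1) + 1)
  generalize nul (L (1, a 1, 1) - 1) = x at *
  generalize nul (L (1, a 1, 1) + 1) = y at *
  have : x = 0 ∧ y = 8 ∨ x = 4 ∧ y = 4 ∨ x = 8 ∧ y = 0 := by omega
  rcases this with ⟨rfl, rfl⟩ | ⟨rfl, rfl⟩ | ⟨rfl, rfl⟩ <;> omega

end Cfsg.Agent.H40.E83Fin
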