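import Mathlib

/-! `Fi₂₃` fusion, part b: three commuting square zero maps on a symplectic space over `F₃`. -/

set_option autoImplicit false
set_option linter.style.haveILetI false

namespace Cfsg.Agent.H40.F23

open LinearMap

variable {V : Type} [AddCommGroup V] [Module (ZMod 3) V]

theorem three (v : V) : v + v + v = 0 := by
  have : ((1 : ZMod 3) + 1 + 1) • v = 0 := by rw [show (1 : ZMod 3) + 1 + 1 = 0 from rfl, zero_smul]
  simpa [add_smul] using this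

theorem card_ge [Finite V] {n : ℕ} (W : Submodule (ZMod 3) V) (v : Fin n → V) (hv : ∀ i, v i ∈ W)
    (li : ∀ c : Fin n → ZMod 3, ∑ i, c i • v i = 0 → ∀ i, c i = 0) : 3 ^ n ≤ Nat.card W := by
  have h1 : Function.Injective (Fintype.linearCombination (ZMod 3) v) :=
    (injective_iff_map_eq_zero _).2 fun c hc => funext (li c hc)
  have := Nat.card_le_card_of_injective (fun c : Fin n → ZMod 3 =>
    (⟨Fintype.linearCombination (ZMod 3) v c, by
      rw [Fintype.linearCombination_apply]; exact W.sum_mem fun i _ => W.smul_mem _ (hv i)⟩ : W))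
    fun a b e => h1 (congrArg Subtype.val e)
  simpa using this

/-- Three commuting skew maps of square zero with non-zero product. -/
structure Cube (β : V →ₗ[ZMod 3] V →ₗ[ZMod 3] ZMod 3) (A B C : Module.End (ZMod 3) V) (v : V) :
    Prop where
  ab : ∀ x, B (A x) = A (B x)
  ac : ∀ x, C (A x) = A (C x)
  bc : ∀ x, C (B x) = B (C x)
  aa : ∀ x, A (A x) = 0
  bb : ∀ x, B (B x) = 0
  cc : ∀ x, C (C x) = 0
  sa : ∀ x y, β (A x) y = -β x (A y)
  sb : ∀ x y, β (B x) y = -β x (B y)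
  sc : ∀ x y, β (C x) y = -β x (C y)
  ne : A (B (C v)) ≠ 0

/-- What the fusion argument needs from `N = ρ(y) - 1`. -/
structure Good (β : V →ₗ[ZMod 3] V →ₗ[ZMod 3] ZMod 3) (N : Module.End (ZMod 3) V) : Prop where
  iso : ∃ W : Submodule (ZMod 3) V, (∀ w ∈ W, β w (N w) = 0 ∧ N (N w) = 0) ∧
    ∃ w₁ ∈ W, ∃ w₂ ∈ W, ∀ i j : ZMod 3, i • N w₁ + j • N w₂ = 0 → i = 0 ∧ j = 0
  big : (9 ≤ Nat.card ↥(ker N ⊓ range N) ∧ 81 ≤ Nat.card (ker N)) ∨
    27 ≤ Nat.card ↥(ker N ⊓ range N)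

namespace Cube

variable {β : V →ₗ[ZMod 3] V →ₗ[ZMod 3] ZMod 3} {A B C N : Module.End (ZMod 3) V} {v : V}

theorem swap₁ (h : Cube β A B C v) : Cube β B A C v :=
  ⟨fun x => (h.ab x).symm, h.bc, h.ac, h.bb, h.aa, h.cc, h.sb, h.sa, h.sc, h.ab _ ▸ h.ne⟩

theorem swap₂ (h : Cube β A B C v) : Cube β A C B v :=
  ⟨h.ac, h.ab, fun x => (h.bc x).symm, h.aa, h.cc, h.bb, h.sa, h.sc, h.sb, h.bc _ ▸ h.ne⟩

theorem smul (h : Cube β A B C v) {a b c : ZMod 3} (ha : a ≠ 0) (hb : b ≠ 0) (hc : c ≠ 0) :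
    Cube β (a • A) (b • B) (c • C) v := by
  haveI : Fact (Nat.Prime 3) := ⟨by norm_num⟩
  refine ⟨fun x => ?_, fun x => ?_, fun x => ?_, fun x => ?_, fun x => ?_, fun x => ?_,
    fun x y => ?_, fun x y => ?_, fun x y => ?_, ?_⟩ <;>
  simp [h.ab, h.ac, h.bc, h.aa, h.bb, h.cc, h.sa, h.sb, h.sc, h.ne, smul_smul, mul_comm, ha, hb, hc]

theorem move (h : Cube β A B C v) {w : V} (hw : A (B (C w)) ≠ 0) : Cube β A B C w :=
  ⟨h.ab, h.ac, h.bc, h.aa, h.bb, h.cc, h.sa, h.sb, h.sc, hw⟩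

theorem ind (h : Cube β A B C v) (c₀ c₁ c₂ c₃ c₄ c₅ c₆ c₇ : ZMod 3)
    (e : c₀ • v + c₁ • A v + c₂ • B v + c₃ • C v + c₄ • A (B v) + c₅ • A (C v) + c₆ • B (C v) +
      c₇ • A (B (C v)) = 0) :
    c₀ = 0 ∧ c₁ = 0 ∧ c₂ = 0 ∧ c₃ = 0 ∧ c₄ = 0 ∧ c₅ = 0 ∧ c₆ = 0 ∧ c₇ = 0 := by
  haveI : Fact (Nat.Prime 3) := ⟨by norm_num⟩
  have n := h.ne
  have e0 : c₀ = 0 := by
    simpa [h.ab, h.ac, h.bc, h.aa, h.bb, h.cc, n] using congrArg (fun x => A (B (C x))) e
  have e1 : c₁ = 0 := by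
    simpa [h.ab, h.ac, h.bc, h.aa, h.bb, h.cc, n, e0] using congrArg (fun x => B (C x)) e
  have e2 : c₂ = 0 := by
    simpa [h.ab, h.ac, h.bc, h.aa, h.bb, h.cc, n, e0] using congrArg (fun x => A (C x)) e
  have e3 : c₃ = 0 := by
    simpa [h.ab, h.ac, h.bc, h.aa, h.bb, h.cc, n, e0] using congrArg (fun x => A (B x)) e
  have e4 : c₄ = 0 := by
    simpa [h.ab, h.ac, h.bc, h.aa, h.bb, h.cc, n, e0, e1, e2, e3] using congrArg C e
  have e5 : c₅ = 0 := by
    simpa [h.ab, h.ac, h.bc, h.aa, h.bb, h.cc, n, e0, e1, e2, e3] using congrArg B e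
  have e6 : c₆ = 0 := by
    simpa [h.ab, h.ac, h.bc, h.aa, h.bb, h.cc, n, e0, e1, e2, e3] using congrArg A e
  refine ⟨e0, e1, e2, e3, e4, e5, e6, ?_⟩
  simpa [n, e0, e1, e2, e3, e4, e5, e6] using e

variable [Finite V]

theorem big₁ (h : Cube β A B C v) : 81 ≤ Nat.card ↥(ker A ⊓ range A) :=
  card_ge _ ![A v, A (B v), A (C v), A (B (C v))]
    (fun i => by fin_cases i <;> exact ⟨h.aa _, _, rfl⟩) fun c e => by
      obtain ⟨-, e1, -, -, e4, e5, -, e7⟩ := h.ind 0 (c 0) 0 0 (c 1) (c 2) 0 (c 3) (by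
        simp [Fin.sum_univ_succ] at e ⊢; linear_combination (norm := module) e)
      intro i; fin_cases i <;> assumption

theorem good₁ (h : Cube β A B C v) : Good β A := by
  refine ⟨⟨range B, ?_, _, ⟨v, rfl⟩, _, ⟨C v, rfl⟩, fun i j e => ?_⟩, Or.inr (le_trans (by norm_num) h.big₁)⟩
  · rintro _ ⟨x, rfl⟩
    simp [h.sb, h.ab, h.aa, h.bb]
  · obtain ⟨-, -, -, -, e4, -, -, e7⟩ := h.ind 0 0 0 0 i 0 0 j (by simpa using e)
    exact ⟨e4, e7⟩

theorem good₂ (h : Cube β A B C v) (hN : ∀ x, N x = A x + B x + A (B x)) : Good β N := by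
  refine ⟨⟨range A, ?_, _, ⟨v, rfl⟩, _, ⟨C v, rfl⟩, fun i j e => ?_⟩, Or.inl ⟨?_, ?_⟩⟩
  · rintro _ ⟨x, rfl⟩
    simp [hN, h.sa, h.ab, h.aa, h.bb]
  · obtain ⟨-, -, -, -, e4, -, -, e7⟩ := h.ind 0 0 0 0 i 0 0 j (by
      simpa [hN, h.ab, h.aa] using e)
    exact ⟨e4, e7⟩
  · refine card_ge _ ![A (B v), A (B (C v))] (fun i => ?_) fun c e => ?_
    · fin_cases i
      · exact ⟨by simp [hN, h.ab, h.aa, h.bb], A v, by simp [hN, h.ab, h.aa]⟩
      · exact ⟨by simp [hN, h.ab, h.aa, h.bb], A (C v), by simp [hN, h.ab, h.aa]⟩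
    · obtain ⟨-, -, -, -, e4, -, -, e7⟩ := h.ind 0 0 0 0 (c 0) 0 0 (c 1) (by
        simpa [Fin.sum_univ_succ] using e)
      intro i; fin_cases i <;> assumption
  · refine card_ge _ ![A (B v), A (B (C v)), A v - B v, A (C v) - B (C v)] (fun i => ?_)
      fun c e => ?_
    · fin_cases i <;> simp [hN, h.ab, h.aa, h.bb]
    · obtain ⟨-, e1, -, -, e4, e5, -, e7⟩ :=
        h.ind 0 (c 2) (-c 2) 0 (c 0) (c 3) (-c 3) (c 1) (by
          simp [Fin.sum_univ_succ] at e ⊢; linear_combination (norm := module) e)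
      intro i; fin_cases i <;> assumption

theorem good₃ (h : Cube β A B C v)
    (hN : ∀ x, N x = A x + B x + C x + A (B x) + A (C x) + B (C x) + A (B (C x)))
    (ho : ∀ x k, N k = 0 → β (N x) k = 0) : Good β N := by
  have h2 : ∀ x, N (N x) = -(A (B x) + A (C x) + B (C x)) := fun x => by
    simp only [hN, map_add, h.ab, h.ac, h.bc, h.aa, h.bb, h.cc, map_zero]
    linear_combination (norm := module) three (A (B x)) + three (A (C x)) + three (B (C x)) +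
      three (A (B (C x))) + three (A (B (C x)))
  have h3 : ∀ x, N (N (N x)) = 0 := fun x => by
    rw [h2, hN]
    simp only [map_add, h.ab, h.ac, h.bc, h.aa, h.bb, h.cc, map_zero]
    linear_combination (norm := module) -three (A (B (C x)))
  have h4 : N (A (B v)) = A (B (C v)) := by simp [hN, h.ab, h.ac, h.bc, h.aa, h.bb]
  refine ⟨⟨range N, ?_, N v, ⟨v, rfl⟩, N (A v), ⟨_, rfl⟩, fun i j e => ?_⟩, Or.inr ?_⟩
  · rintro _ ⟨x, rfl⟩
    exact ⟨ho _ _ (h3 x), h3 x⟩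
  · rw [h2, h2] at e
    simp only [h.ab, h.ac, h.aa] at e
    obtain ⟨-, -, -, -, e4, -, -, e7⟩ := h.ind 0 0 0 0 (-i) (-i) (-i) (-j) (by
      linear_combination (norm := module) e)
    exact ⟨neg_eq_zero.1 e4, neg_eq_zero.1 e7⟩
  · refine card_ge _ ![A (B (C v)), A (C v) - B (C v), A (B v) - B (C v)] (fun i => ?_)
      fun c e => ?_
    · fin_cases i
      · exact ⟨by simp [hN, h.ab, h.ac, h.bc, h.aa, h.bb, h.cc], _, h4⟩
      · exact ⟨by simp [hN, h.ab, h.ac, h.bc, h.aa, h.bb, h.cc], A v - B v, by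
          simp [hN, h.ab, h.ac, h.bc, h.aa, h.bb]⟩
      · exact ⟨by simp [hN, h.ab, h.ac, h.bc, h.aa, h.bb, h.cc], A v - C v, by
          simp [hN, h.ab, h.ac, h.aa, h.cc]⟩
    · obtain ⟨-, -, -, -, e4, e5, -, e7⟩ :=
        h.ind 0 0 0 0 (c 2) (c 1) (-c 1 - c 2) (c 0) (by
          simp [Fin.sum_univ_succ] at e ⊢; linear_combination (norm := module) e)
      intro i; fin_cases i <;> assumption

omit [Finite V] in
theorem pw (hA : ∀ x, A (A x) = 0) (i : Fin 3) :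
    ∃ c : ZMod 3, c ≠ 0 ∧ ((i = 0 ∧ (1 + A) ^ i.1 = 1) ∨ (1 + A) ^ i.1 = 1 + c • A) := by
  fin_cases i
  · exact ⟨1, by decide, Or.inl ⟨rfl, rfl⟩⟩
  · exact ⟨1, by decide, Or.inr (by simp)⟩
  · refine ⟨2, by decide, Or.inr (LinearMap.ext fun x => ?_)⟩
    simp [pow_two, hA, two_smul, add_assoc]

theorem good (h : Cube β A B C v) (i j k : Fin 3) (hne : ¬ (i = 0 ∧ j = 0 ∧ k = 0))
    (hN : N = (1 + A) ^ i.1 * (1 + B) ^ j.1 * (1 + C) ^ k.1 - 1)
    (ho : ∀ x k, N k = 0 → β (N x) k = 0) : Good β N := by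
  obtain ⟨a, ha, ea⟩ := pw h.aa i
  obtain ⟨b, hb, eb⟩ := pw h.bb j
  obtain ⟨c, hc, ec⟩ := pw h.cc k
  have h' := h.smul ha hb hc
  generalize a • A = A' at h' ea
  generalize b • B = B' at h' eb
  generalize c • C = C' at h' ec
  rcases ea with ⟨i0, ea⟩ | ea <;> rcases eb with ⟨j0, eb⟩ | eb <;> rcases ec with ⟨k0, ec⟩ | ec <;>
    rw [ea, eb, ec] at hN
  · exact absurd ⟨i0, j0, k0⟩ hne
  · rw [hN]; simpa using h'.swap₂.swap₁.good₁
  · rw [hN]; simpa using h'.swap₁.good₁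
  · exact h'.swap₁.swap₂.good₂ fun x => by simp [hN]; abel
  · rw [hN]; simpa using h'.good₁
  · exact h'.swap₂.good₂ fun x => by simp [hN]; abel
  · exact h'.good₂ fun x => by simp [hN]; abel
  · exact h'.good₃ (fun x => by simp [hN]; abel) ho

omit [Finite V] in
/-- in dimension eight the common kernel is a line -/
theorem line {β : (Fin 8 → ZMod 3) →ₗ[ZMod 3] (Fin 8 → ZMod 3) →ₗ[ZMod 3] ZMod 3}
    {A B C : Module.End (ZMod 3) (Fin 8 → ZMod 3)} {v : Fin 8 → ZMod 3} (h : Cube β A B C v)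
    {x : Fin 8 → ZMod 3} (ha : A x = 0) (hb : B x = 0) (hc : C x = 0) :
    ∃ c : ZMod 3, x = c • A (B (C v)) := by
  haveI : Fact (Nat.Prime 3) := ⟨by norm_num⟩
  let f : Module.End (ZMod 3) (Fin 8 → ZMod 3) := Fintype.linearCombination (ZMod 3)
    ![v, A v, B v, C v, A (B v), A (C v), B (C v), A (B (C v))]
  have hf : ∀ c, f c = c 0 • v + c 1 • A v + c 2 • B v + c 3 • C v + c 4 • A (B v) +
      c 5 • A (C v) + c 6 • B (C v) + c 7 • A (B (C v)) := fun c => by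
    simp only [f, Fintype.linearCombination_apply, Fin.sum_univ_eight]; rfl
  have h1 : Function.Injective f := (injective_iff_map_eq_zero _).2 fun c e => by
    obtain ⟨e0, e1, e2, e3, e4, e5, e6, e7⟩ := h.ind _ _ _ _ _ _ _ _ ((hf c).symm.trans e)
    funext i; fin_cases i <;> assumption
  obtain ⟨c, rfl⟩ := LinearMap.injective_iff_surjective.1 h1 x
  rw [hf] at ha hb hc ⊢
  simp only [map_add, map_smul, h.ab, h.ac, h.bc, h.aa, h.bb, h.cc, map_zero, smul_zero] at ha hb hc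
  obtain ⟨-, e0, -, -, e2, e3, -, e6⟩ := h.ind 0 (c 0) 0 0 (c 2) (c 3) 0 (c 6) (by
    linear_combination (norm := module) ha)
  obtain ⟨-, -, -, -, e1, -, -, e5⟩ := h.ind 0 0 (c 0) 0 (c 1) 0 (c 3) (c 5) (by
    linear_combination (norm := module) hb)
  obtain ⟨-, -, -, -, -, -, -, e4⟩ := h.ind 0 0 0 (c 0) 0 (c 1) (c 2) (c 4) (by
    linear_combination (norm := module) hc)
  exact ⟨c 7, by simp [e0, e1, e2, e3, e4, e5, e6]⟩

/-- an involution swapping `A` and `B` with a small `-1`-eigenspace fixes the line -/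
theorem fix (h : Cube β A B C v) {δ : Module.End (ZMod 3) V} (dd : ∀ x, δ (δ x) = x)
    (da : ∀ x, δ (A x) = B (δ x)) (dc : ∀ x, δ (C x) = C (δ x))
    (hc : Nat.card (ker (δ + 1)) < 27) {c : ZMod 3} (e : δ (A (B (C v))) = c • A (B (C v))) :
    c = 1 := by
  have db : ∀ x, δ (B x) = A (δ x) := fun x => by
    conv_lhs => rw [← dd x, ← da, dd]
  have c0 : c ≠ 0 := fun c0 => h.ne (by
    have := congrArg δ e
    rwa [dd, c0, zero_smul, map_zero] at this)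
  by_contra c1
  have cm : c = -1 := (by decide : ∀ c : ZMod 3, c ≠ 0 → c ≠ 1 → c = -1) c c0 c1
  have e1 : A (B (C (δ v))) = -A (B (C v)) := by
    rw [← h.ab, ← dc, ← db, ← da, e, cm, neg_smul, one_smul]
  have h' := h.move (w := v - δ v) (by
    rw [map_sub, map_sub, map_sub, e1]
    intro e2
    exact h.ne (by linear_combination (norm := module) three (A (B (C v))) - e2))
  have e2 : δ (v - δ v) = -(v - δ v) := by simp [dd]
  generalize v - δ v = w at h' e2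
  refine absurd (card_ge (ker (δ + 1)) ![w, C w, A (B (C w))] (fun i => ?_) fun c e => ?_)
    (not_le.2 hc)
  · fin_cases i <;> simp [da, db, dc, e2, h.ab]
  · obtain ⟨e0, -, -, e3, -, -, -, e7⟩ := h'.ind (c 0) 0 0 (c 1) 0 0 0 (c 2) (by
      simp [Fin.sum_univ_succ] at e ⊢; linear_combination (norm := module) e)
    intro i; fin_cases i <;> assumption

end Cube

end Cfsg.Agent.H40.F23
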