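import Cfsg.Agent.H2.FXDefs

/-! Project FX, piece NOFIX. -/

set_option autoImplicit false

namespace Cfsg.Agent.H40.FXNoFix

open Module Cfsg.Agent.H2FX
open scoped Matrix MatrixGroups

theorem tab : ∀ p ∈ [(1, 12, 0, 2), (2, 6, 1, 3), (3, 4, 1, 2), (4, 3, 2, 0), (5, 5, 0, 3),
    (6, 2, 2, 3), (7, 11, 2, 1), (8, 8, 0, 1), (9, 10, 2, 2), (10, 9, 1, 0), (11, 7, 1, 1),
    (12, 1, 0, 0)], (gs * gu ^ p.1 * gs).1 =
      (gu ^ p.2.1 * gs * gc ^ p.2.2.1 * gt ^ p.2.2.2 * gu ^ p.2.1).1 := by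
  decide +kernel

theorem noFix : NoFixStmt := by
  intro F W _ _ _ _ ρ _ R hEA v hA' hM'
  have h3 : (3 : End F W) = 0 := by
    have : ((3 : ℕ) : End F W) = algebraMap F (End F W) ((3 : ℕ) : F) := (map_natCast _ 3).symm
    rw [CharP.cast_eq_zero F 3, map_zero] at this
    exact_mod_cast this
  have w3 : ∀ w : W, w + w + w = 0 := fun w => by
    have := LinearMap.congr_fun h3 w
    rwa [show (3 : End F W) = 1 + 1 + 1 by norm_num] at this
  have two : ∀ w w' : W, w + w = w' + w' → w = w' := fun w w' h => by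
    have h1 := w3 w
    have h2 := w3 w'
    rw [h] at h1
    exact add_left_cancel (h1.trans h2.symm)
  have n26 : (26 : End F W) = -1 := by
    rw [show (26 : End F W) = 3 * 9 - 1 by norm_num, h3]; simp
  have n130 : (130 : End F W) = 1 := by
    rw [show (130 : End F W) = 3 * 43 + 1 by norm_num, h3]; simp
  have n52 : (52 : End F W) = 1 := by
    rw [show (52 : End F W) = 3 * 17 + 1 by norm_num, h3]; simp
  have n9 : (9 : End F W) = 0 := by
    rw [show (9 : End F W) = 3 * 3 by norm_num, h3]; simp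
  have n16 : (16 : End F W) = 1 := by
    rw [show (16 : End F W) = 3 * 5 + 1 by norm_num, h3]; simp
  have n12 : (12 : End F W) = 0 := by
    rw [show (12 : End F W) = 3 * 4 by norm_num, h3]; simp
  have hE' : hE ρ v = -v := by
    have := LinearMap.congr_fun hEA v
    rw [n26, neg_one_mul, End.mul_apply, LinearMap.neg_apply, hA', map_neg] at this
    exact neg_injective this
  have fix : ∀ g, ρ g * hE ρ = hE ρ → ρ g v = v := fun g h => by
    have := LinearMap.congr_fun h v
    rw [End.mul_apply, hE', map_neg] at this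
    exact neg_injective this
  have hu := fix _ R.uE
  have ht := fix _ R.tE
  have hc : ρ gc v = v := by
    have h1 : ρ gc v = (ρ gc ^ 2) v := sub_eq_zero.1 hM'
    have h2 := LinearMap.congr_fun R.c3 v
    rw [pow_succ', End.mul_apply, ← h1, ← End.mul_apply, ← sq, ← h1] at h2
    exact h2
  have pw : ∀ g, ρ g v = v → ∀ n : ℕ, (ρ g ^ n) v = v := fun g h n => by
    induction n with
    | zero => rfl
    | succ n ih => rw [pow_succ, End.mul_apply, h, ih]
  have cEs : ρ gc (hE ρ (ρ gs v)) = hE ρ (ρ gs v) := by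
    rw [← End.mul_apply, R.cE, End.mul_apply, ← End.mul_apply (ρ gc), R.cs, End.mul_apply,
      pw _ hc]
  have Es : hE ρ (ρ gs v) = v + v := by
    rw [hA, n130, n52, n9, n16, n12] at hA'
    simp only [one_mul, zero_mul, zero_add, sub_zero, LinearMap.add_apply, LinearMap.sub_apply,
      End.mul_apply, End.one_apply, hE', map_neg, pw _ hc, hc, cEs] at hA'
    linear_combination (norm := abel_nf) -hA'
  have Qs : hQ ρ (ρ gs v) = v := by
    refine two _ _ ?_
    rw [hE, add_mul, one_mul, R.tQ, LinearMap.add_apply, End.mul_apply, ← End.mul_apply (ρ gt),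
      R.ts, End.mul_apply, ht] at Es
    exact Es
  have key : ∀ p ∈ [(1, 12, 0, 2), (2, 6, 1, 3), (3, 4, 1, 2), (4, 3, 2, 0), (5, 5, 0, 3),
      (6, 2, 2, 3), (7, 11, 2, 1), (8, 8, 0, 1), (9, 10, 2, 2), (10, 9, 1, 0), (11, 7, 1, 1),
      (12, 1, 0, 0)], ρ gs ((ρ gu ^ p.1) (ρ gs v)) = (ρ gu ^ p.2.1) (ρ gs v) := fun p hp => by
    have := LinearMap.congr_fun (congrArg ρ (Subtype.ext (tab p hp))) v
    simpa only [map_mul, map_pow, End.mul_apply, pw _ hu, pw _ ht, pw _ hc] using this
  simp only [List.forall_mem_cons, List.not_mem_nil, false_imp_iff, implies_true, and_true] at key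
  obtain ⟨k1, k2, k3, k4, k5, k6, k7, k8, k9, k10, k11, k12⟩ := key
  have ss : ρ gs (ρ gs v) = v := LinearMap.congr_fun R.ss v
  have h1 := congrArg (ρ gs) Qs
  simp only [hQ, Finset.sum_range_succ, Finset.sum_range_zero, LinearMap.add_apply, map_add,
    zero_add, pow_zero, End.one_apply] at h1 Qs
  rw [k1, k2, k3, k4, k5, k6, k7, k8, k9, k10, k11, k12, ss] at h1
  refine ⟨hu, two _ _ ?_⟩
  linear_combination (norm := abel_nf) Qs - h1

end Cfsg.Agent.H40.FXNoFix
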