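import Cfsg.Agent.H89.L27Defs

/-! Project L27, piece DIST. -/

set_option autoImplicit false

namespace Cfsg.Agent.H40.L27Dist

open Equiv Cfsg.Lie H37 H34 H29 Module Cfsg.Agent.H50.E83 Cfsg.Agent.H89.L27

theorem dist_gen {ι Φ : Type*} {S : SignedSys ι Φ} {G : Type*} [Group G] (P : Split S G) :
    ∀ a ∈ P.Vn, ∀ a' ∈ P.Vn, ∀ h ∈ P.H, ∀ h' ∈ P.H, ∀ b ∈ P.Up, ∀ b' ∈ P.Up,
      a * h * b = a' * h' * b' → a = a' ∧ h = h' ∧ b = b' := by
  intro a ha a' ha' h hh h' hh' b hb b' hb' e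
  have e1 : a'⁻¹ * a = h' * b' * (h * b)⁻¹ := by
    rw [eq_mul_inv_iff_mul_eq, mul_assoc, ← mul_assoc a, e]; group
  have h1 : a'⁻¹ * a = 1 := Split.eq_one_of_B_V (P := P)
    (e1 ▸ mul_mem (mul_mem (Split.H_le_B hh') (Split.Up_le_B hb'))
      (inv_mem (mul_mem (Split.H_le_B hh) (Split.Up_le_B hb)))) (mul_mem (inv_mem ha') ha)
  obtain rfl : a' = a := inv_mul_eq_one.1 h1
  have e2 : h * b = h' * b' := mul_left_cancel (a := a') (by rw [← mul_assoc, e, mul_assoc])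
  have e3 : b' * b⁻¹ = h'⁻¹ * h := by
    rw [mul_inv_eq_iff_eq_mul, mul_assoc, e2]; group
  have h2 : b' * b⁻¹ = 1 := Split.eq_one_of_U_H (P := P) (mul_mem hb' (inv_mem hb))
    (e3 ▸ mul_mem (inv_mem hh') hh)
  obtain rfl : b' = b := mul_inv_eq_one.1 h2
  exact ⟨rfl, mul_right_cancel e2, rfl⟩

theorem dist : DistStmt := dist_gen P8

end Cfsg.Agent.H40.L27Dist
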