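import Cfsg.Agent.H93.L8Defs

/-! Project CY, chapter L8, piece SW. -/

set_option autoImplicit false

namespace Cfsg.Agent.H40.L8Sw

open Subgroup MulAction Cfsg.Agent.H11.Cy Cfsg.Agent.H93.L8

theorem sq_of_four {M : Type} [Group M] (h : ∀ x : M, x ^ 4 = 1 → x ^ 2 = 1) (k : ℕ) :
    ∀ x : M, x ^ 2 ^ k = 1 → x ^ 2 = 1 := by
  induction k with
  | zero => intro x hx; rw [pow_zero, pow_one] at hx; rw [hx, one_pow]
  | succ k ih =>
    intro x hx
    refine h x ?_
    have := ih (x ^ 2) (by rw [← pow_mul, ← pow_succ']; exact hx)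
    rwa [← pow_mul] at this

theorem nrm {G : Type} [Group G] [Finite G] {Ω : Type} [MulAction G Ω] {p : ℕ} {A : Ω → Subgroup G}
    (h : St p A) (g : G) (x y : Ω) (hx : A (g • x) ≤ Fl A x y) (hy : A (g • y) ≤ Fl A x y) :
    g ∈ normalizer (Fl A x y : Set G) := by
  have : Fl A x y ≤ (Fl A x y).comap (MulAut.conj g).toMonoidHom :=
    sup_le (fun a ha => hx (h.eqv g x a ha)) (fun a ha => hy (h.eqv g y a ha))
  exact Subgroup.mem_normalizer_fintype fun n hn => this hn

theorem sw : SwStmt := by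
  intro G _ _ Ω _ _ p A h hp ep ty idx fx x y hxy
  obtain ⟨f8, -, -⟩ := ty x y hxy
  obtain ⟨hc, h2⟩ := idx x y hxy
  obtain ⟨t, ht, htx, hty, htc, huq⟩ := fx x y hxy
  have ht2 : t ^ 2 = 1 := ht ▸ pow_orderOf_eq_one t
  have htt : t * t = 1 := by rw [← pow_two, ht2]
  have ht1 : t ≠ 1 := by rintro rfl; simp at ht
  have swN : ∀ g : G, g • x = y → g • y = x → g ∈ normalizer (Fl A x y : Set G) := fun g a b =>
    nrm h g x y (by rw [a]; exact le_sup_right) (by rw [b]; exact le_sup_left)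
  have htF : t ∈ Fl A x y := h2 t (nrm h t x y (by rw [htx]; exact le_sup_left)
    (by rw [hty]; exact le_sup_right)) ⟨1, by rw [pow_one, ht2]⟩
  obtain ⟨g, -, gx, gy⟩ := h.two x trivial y trivial y trivial x trivial hxy hxy.symm
  obtain ⟨k, r, ⟨m, rfl⟩, hr⟩ := Nat.exists_eq_two_pow_mul_odd (orderOf_pos g).ne'
  have g2 : ∀ j : ℕ, (g ^ 2) ^ j • x = x ∧ (g ^ 2) ^ j • y = y := by
    intro j
    induction j with
    | zero => simp
    | succ j ih =>
      have a1 : g ^ 2 • x = x := by rw [pow_two, mul_smul, gx, gy]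
      have a2 : g ^ 2 • y = y := by rw [pow_two, mul_smul, gy, gx]
      rw [pow_succ (g ^ 2), mul_smul, mul_smul, a1, a2]
      exact ih
  obtain ⟨s, sx, sy, sk⟩ : ∃ s : G, s • x = y ∧ s • y = x ∧ s ^ 2 ^ k = 1 := by
    refine ⟨g ^ (2 * m + 1), ?_, ?_, ?_⟩
    · rw [pow_succ, pow_mul, mul_smul, gx, (g2 m).2]
    · rw [pow_succ, pow_mul, mul_smul, gy, (g2 m).1]
    · rw [← pow_mul, mul_comm, ← hr, pow_orderOf_eq_one]
  have sF : s ∈ Fl A x y := h2 s (swN s sx sy) ⟨k, sk⟩
  have s2 : s ^ 2 = 1 :=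
    congrArg Subtype.val (sq_of_four f8.four k ⟨s, sF⟩ (Subtype.ext sk))
  have ss : s * s = 1 := by rw [← pow_two, s2]
  have o2 : ∀ u : G, u ^ 2 = 1 → u • x = y → orderOf u = 2 := fun u hu hux =>
    orderOf_eq_prime hu (by rintro rfl; exact hxy (by simpa using hux))
  have sinv : s⁻¹ = s := inv_eq_of_mul_eq_one_right ss
  have st : s * t * s⁻¹ = t := by
    refine huq _ ?_ ?_ ?_
    · rw [← ht]; exact (MulAut.conj s).orderOf_eq t
    · rw [sinv, mul_smul, mul_smul, sx, hty, sy]
    · rw [sinv, mul_smul, mul_smul, sy, htx, sx]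
  have st' : s * t = t * s := by rw [← mul_inv_eq_iff_eq_mul]; exact st
  have KH : Kl A x y ≤ Hs G x y := fun c hc' =>
    ⟨(ep.kfix x y hxy c).1 hc' x (le_sup_left : A x ≤ Fl A x y),
      (ep.kfix x y hxy c).1 hc' y (le_sup_right : A y ≤ Fl A x y)⟩
  have tK : t ∉ Kl A x y := fun h' =>
    htc (centralizer_le (show (A x : Set G) ⊆ Fl A x y from (le_sup_left : A x ≤ Fl A x y)) h')
  have hi : ((Kl A x y).subgroupOf (Hs G x y)).index = 2 := by
    have e1 := ((Kl A x y).subgroupOf (Hs G x y)).index_mul_card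
    rw [Nat.card_congr (subgroupOfEquivOfLe KH).toEquiv, hc] at e1
    exact Nat.eq_of_mul_eq_mul_right Nat.card_pos e1
  have FK : ∀ c ∈ Fl A x y, c ∈ Kl A x y → c = 1 := by
    intro c hcF hcK
    have := f8.simple
    rcases IsSimpleGroup.eq_bot_or_eq_top_of_normal (center (Fl A x y)) inferInstance with e | e
    · have : (⟨c, hcF⟩ : Fl A x y) ∈ center (Fl A x y) :=
        mem_center_iff.2 fun b => Subtype.ext (hcK b b.2)
      rw [e, mem_bot] at this
      exact congrArg Subtype.val this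
    · refine absurd (fun b hb => ?_) tK
      have : (⟨t, htF⟩ : Fl A x y) ∈ center (Fl A x y) := by rw [e]; trivial
      exact congrArg Subtype.val (mem_center_iff.1 this ⟨b, hb⟩)
  have hset : {u : G | orderOf u = 2 ∧ u • x = y} = {s, s * t} := by
    ext u
    constructor
    · rintro ⟨hu, ux⟩
      have u2 : u ^ 2 = 1 := hu ▸ pow_orderOf_eq_one u
      have uy : u • y = x := by rw [← ux, ← mul_smul, ← pow_two, u2, one_smul]
      have uF : u ∈ Fl A x y := h2 u (swN u ux uy) ⟨1, by rw [pow_one, u2]⟩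
      have hH : s * u ∈ Hs G x y :=
        ⟨show (s * u) • x = x by rw [mul_smul, ux, sy], show (s * u) • y = y by rw [mul_smul, uy, sx]⟩
      by_cases hK : s * u ∈ Kl A x y
      · left
        have := FK _ (mul_mem sF uF) hK
        rw [← sinv, eq_comm]; exact inv_eq_of_mul_eq_one_right this
      · right
        have h3 : (⟨s * u, hH⟩ * ⟨t, htx, hty⟩ : Hs G x y) ∈ (Kl A x y).subgroupOf (Hs G x y) :=
          (mul_mem_iff_of_index_two hi).2 (iff_of_false hK tK)
        have := FK _ (mul_mem (mul_mem sF uF) htF) h3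
        show u = s * t
        calc u = (s * s) * u * (t * t) := by rw [ss, htt, one_mul, mul_one]
          _ = s * (s * u * t) * t := by simp only [mul_assoc]
          _ = s * t := by rw [this, mul_one]
    · rintro (rfl | rfl)
      · exact ⟨o2 _ s2 sx, sx⟩
      · have e : (s * t) • x = y := by rw [mul_smul, htx, sx]
        refine ⟨o2 _ ?_ e, e⟩
        rw [(show Commute s t from st').mul_pow, s2, ht2, one_mul]
  rw [hset]
  exact Set.ncard_pair fun e => ht1 (by simpa using e)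

end Cfsg.Agent.H40.L8Sw
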