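import Cfsg.Agent.H11.CyLp
import Cfsg.Agent.H23.ElPQ
import Cfsg.Agent.H30.ElZK

/-! Project CY, chapter LP, piece N3b. -/

set_option autoImplicit false
open Subgroup MulAction

namespace Cfsg.Agent.H40.LpN3b

open Cfsg.Agent.H11.Cy Cfsg.Agent.H11.Cy.Lp
open Cfsg.Agent.H11.EL (Nm Ct C1 cj Ex R1 SC OS WS CL2 Fpf)

theorem n3b (hW : WStmt) (hWK : WKStmt) (hAB : ABStmt) (hNU : NUStmt) (hN : N3nStmt) :
    N3bStmt := by
  intro G _ _ Ω _ _ p A h x y l3 odd e1 k hk
  by_contra hcon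
  have la := l3.la x y l3.xy
  have mix : ∀ k1, Mixed A x y k1 → orderOf k1 = p ∧
      ∀ c ∈ Kl A x y, Commute c k1 → c ∈ zpowers k1 := by
    rintro k1 ⟨h1, h2, z, hz, hm⟩
    have := l3.mix x y z l3.xy hz k1 h1 h2 hm
    exact ⟨this.1, this.2.2⟩
  have key : ∀ k1, Mixed A x y k1 → Kl A x y ≠ zpowers k1 := by
    intro k1 h1 he
    refine hcon (eq_of_le_of_card_ge ((zpowers_le).2 hk.1) ?_).symm
    rw [he, Nat.card_zpowers, Nat.card_zpowers, (mix k1 h1).1, (mix k hk).1]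
  have KA : Kl A x y ≤ Ct (A x) := centralizer_le (SetLike.coe_subset_coe.2 le_sup_left)
  have CN : Ct (A x) ≤ Nm (A x) := centralizer_le_normalizer _
  have AK : ∀ a ∈ A x, a ∈ Kl A x y → a = 1 := fun a ha hc =>
    la.ctr a (mem_sup_left ha) hc
  obtain ⟨W, l, ws⟩ := hW G Ω p A h x y l3 odd e1
  obtain ⟨wk1, wk3⟩ := hWK G Ω p A h x y l3 W l ws
  have KW : Kl A x y ≤ Nm W := KA.trans (CN.trans ws.nm)
  have bot : W ⊓ Kl A x y = ⊥ := by
    by_contra hne
    obtain ⟨⟨k1, h1, h2⟩, h3⟩ := ne_bot_iff_exists_ne_one.1 hne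
    have h3' : k1 ≠ 1 := fun e => h3 (Subtype.ext e)
    have m1 := wk1 k1 h1 h2 h3'
    have sub : ∀ c ∈ W, c ∈ Kl A x y → c ∈ zpowers k1 := by
      intro c hc hc'
      refine (mix k1 m1).2 c hc' ?_
      have := AK _ (ws.ab c hc k1 h1)
        (mul_mem (mul_mem (mul_mem hc' h2) (inv_mem hc')) (inv_mem h2))
      rw [mul_inv_eq_one, mul_inv_eq_iff_eq_mul] at this
      exact this
    have zW : zpowers k1 ≤ W := (zpowers_le).2 h1
    have zK : zpowers k1 ≤ Kl A x y := (zpowers_le).2 h2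
    have cj' : ∀ n ∈ Kl A x y, ∀ u ∈ zpowers k1, n * u * n⁻¹ ∈ zpowers k1 := by
      intro n hn u hx
      exact sub _ ((mem_normalizer_iff.1 (KW hn) u).1 (zW hx))
        (mul_mem (mul_mem hn (zK hx)) (inv_mem hn))
    refine key k1 m1 (le_antisymm (fun n hn => hN G Ω p A h x y l3 odd k1 m1 n hn ?_) zK)
    refine mem_normalizer_iff.2 fun u => ⟨cj' n hn u, fun hx => ?_⟩
    have := cj' n⁻¹ (inv_mem hn) _ hx
    simpa [mul_assoc] using this
  have w3 := wk3 bot
  obtain ⟨ok, ck⟩ := mix k hk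
  by_cases hl : p = l
  · subst hl
    obtain ⟨f, s, lc⟩ := l3.lc x y l3.xy
    have fk : Commute f k := (mem_centralizer_iff.1 hk.1 f lc.fL)
    obtain ⟨i, hi, hi'⟩ := lc.fe
    have fo := lc.fo
    have p7 := l3.p7
    have ab := hAB p (orderOf f) (A x) W k f i h.pp (h.card x) ws (KA hk.1)
      (by rw [← ok, pow_orderOf_eq_one]) ((l3.mc.ep.nA x f).2 lc.fH.1) (pow_orderOf_eq_one f)
      (fun hd => by have := Nat.le_of_dvd (by omega) hd; omega) hi
      (fun hd => by
        have := Nat.le_of_dvd one_pos ((hi' 1).1 (by rwa [pow_one]))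
        omega) fk (w3 k hk.1 hk.2.1)
    exact hNU p (A x) W _ k h.pp (h.card x) ws ab KA hk.1 ok (hN G Ω p A h x y l3 odd k hk) hcon w3
  · have fpf : Fpf (Kl A x y) (A x) W := by
      intro g hg g1 w hw ha
      set a := g * w * g⁻¹ * w⁻¹ with hadef
      have aw : Commute a w := mem_centralizer_iff.1 (ws.ct hw) a ha
      have e1 : g * w * g⁻¹ = a * w := by rw [hadef]; group
      have e2 : g * w ^ l * g⁻¹ = a ^ l * w ^ l := by
        rw [← conj_pow, e1, aw.mul_pow]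
      have e3 : g * w ^ l * g⁻¹ = w ^ l := by
        have := mem_centralizer_iff.1 (KA hg) _ (ws.el w hw)
        rw [← this]; group
      have e4 : a ^ l = 1 := by
        rw [e3] at e2
        exact mul_eq_right.1 e2.symm
      have e5 : a ^ p = 1 := by
        have := pow_card_eq_one' (x := (⟨a, ha⟩ : A x))
        rw [h.card x] at this
        exact congrArg Subtype.val this
      have cop : Nat.Coprime l p :=
        (Nat.coprime_primes ws.pr h.pp).2 (Ne.symm hl)
      have e6 : a = 1 := by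
        have : a ^ Nat.gcd l p = 1 := pow_gcd_eq_one.2 ⟨e4, e5⟩
        rwa [cop, pow_one] at this
      refine w3 g hg g1 w hw ?_
      rw [e6, one_mul, mul_inv_eq_iff_eq_mul] at e1
      exact e1.symm
    have pq := Cfsg.Agent.H23.ElPQ.pq _ (A x) W ws.le ws.ne (ws.ct.trans CN) (KA.trans CN) KW ws.ab fpf
    have Kne : Kl A x y ≠ ⊥ := fun e => hk.2.1 (by have := hk.1; rwa [e, mem_bot] at this)
    obtain ⟨r, R, hr, rp, -, -, -, -, cen⟩ := Cfsg.Agent.H30.ElZK.zk _ odd Kne pq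
    have : Fact r.Prime := ⟨rp⟩
    obtain ⟨c, hc⟩ := exists_prime_orderOf_dvd_card' (G := Kl A x y) r (hr ▸ Nat.minFac_dvd _)
    have hc' : orderOf (c : G) = r := by rw [orderOf_coe, hc]
    have cz : (c : G) ∈ zpowers k := ck c c.2 (cen c c.2 hc' k hk.1).symm
    have r11 : r = p := by
      have := orderOf_dvd_of_mem_zpowers cz
      rw [hc', ok] at this
      exact (Nat.prime_dvd_prime_iff_eq rp h.pp).1 this
    refine key k hk (le_antisymm (fun n hn => ck n hn (cen k hk.1 (ok.trans r11.symm) n hn)) ?_)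
    exact (zpowers_le).2 hk.1

end Cfsg.Agent.H40.LpN3b
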