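import Cfsg.Agent.H54.O84Defs

/-! Project O84, piece NM. -/

set_option autoImplicit false

namespace Cfsg.Agent.H40.O84Nm

open Equiv Cfsg.Lie H37 H34 H29 Cfsg.Agent.H54.O84

section
variable {ι Φ : Type*} {S : SignedSys ι Φ} {G : Type*} [Group G] (P : Split S G)

theorem map_U {n : G} (hn : n ∈ P.N) (A : Set Φ) :
    (P.U A).map (MulAut.conj n).toMonoidHom = P.U (P.ν n '' A) := by
  refine le_antisymm ?_ fun g hg => ⟨n⁻¹ * g * n, Split.conj_U' hn ?_ hg, by simp [mul_assoc]⟩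
  · rintro _ ⟨g, hg, rfl⟩
    exact Split.conj_U hn (fun r hr => Set.mem_image_of_mem _ hr) hg
  · rintro _ ⟨r, hr, rfl⟩
    simpa using hr

theorem mem_map_conj {H : Subgroup G} {n g : G} :
    g ∈ H.map (MulAut.conj n).toMonoidHom ↔ n⁻¹ * g * n ∈ H :=
  ⟨by rintro ⟨x, hx, rfl⟩; simpa [mul_assoc] using hx, fun h => ⟨_, h, by simp [mul_assoc]⟩⟩

theorem transfer {A : Set Φ} {W : Set Φ → Subgroup (Perm Φ)}
    (hW : ∀ u ∈ S.W, (W A).map (MulAut.conj u).toMonoidHom = W (u '' A))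
    (h : ∀ n ∈ P.N, n ∈ P.U A ↔ P.ν n ∈ W A) {u : Perm Φ} (hu : u ∈ S.W) {n : G} (hn : n ∈ P.N) :
    n ∈ P.U (u '' A) ↔ P.ν n ∈ W (u '' A) := by
  obtain ⟨k, hk, rfl⟩ := P.exists_lift hu
  rw [← map_U P hk, ← hW _ hu, mem_map_conj, mem_map_conj,
    h _ (mul_mem (mul_mem (inv_mem hk) hn) hk), P.ν_mul _ (mul_mem (inv_mem hk) hn) _ hk,
    P.ν_mul _ (inv_mem hk) _ hn, Split.ν_inv hk]

end

theorem nm (rho : RhoStmt) (n2 : Nm2Stmt) (n3 : Nm3Stmt) : NmStmt :=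
  ⟨fun _ hn A => map_U P8 hn A, fun _ hu _ hn =>
    transfer P8 (W := WS) (fun u hu => rho.2.2.2.2.2.2.2.2.2 u hu Ψ0)
      (fun n hn => ⟨n3 n hn, n2 n hn⟩) hu hn⟩

end Cfsg.Agent.H40.O84Nm
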