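import Cfsg.Agent.H71.P3Defs

/-! Project P3, piece BOR. -/

set_option autoImplicit false

namespace Cfsg.Agent.H40.P3Bor

open Cfsg Module Cfsg.Agent.H27 Cfsg.Agent.H71.P3
open scoped Pointwise

section rep

variable {F U M : Type*} [Field F] [Group U] [AddCommGroup M] [Module F M] [Finite M] {p : ℕ}
  [Fact p.Prime] [CharP F p]

theorem fix1 (hU : IsPGroup p U) (ρ : Representation F U M) {m : M} (hm : m ≠ 0) :
    ∃ y, y ≠ 0 ∧ ∀ g, ρ g y = y := by
  letI : MulAction U M := MulAction.compHom M ρ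
  have h1 : addOrderOf m = p := addOrderOf_eq_prime
    (by rw [← Nat.cast_smul_eq_nsmul F, CharP.cast_eq_zero, zero_smul]) hm
  obtain ⟨b, hb, h0⟩ := hU.exists_fixed_point_of_prime_dvd_card_of_fixed_point M
    (h1 ▸ addOrderOf_dvd_natCard m) (a := 0) fun g => map_zero (ρ g)
  exact ⟨b, h0.symm, hb⟩

theorem fix2 (hU : IsPGroup p U) (ρ : Representation F U M) {A C : Submodule F M}
    (hA : ∀ g, A ≤ A.comap (ρ g)) (hC : ∀ g, C ≤ C.comap (ρ g)) (h : ¬ C ≤ A) :
    ∃ y ∈ C, y ∉ A ∧ ∀ g, ρ g y - y ∈ A := by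
  obtain ⟨m, hm, hm'⟩ := SetLike.not_le_iff_exists.1 h
  have : Finite (M ⧸ A) := Finite.of_surjective _ A.mkQ_surjective
  obtain ⟨⟨_, y, hy, rfl⟩, h0, h1⟩ := fix1 hU ((ρ.quotient A hA).subrepresentation (C.map A.mkQ)
    (by rintro g _ ⟨y, hy, rfl⟩; exact ⟨_, hC g hy, rfl⟩)) (m := ⟨_, m, hm, rfl⟩)
    fun e => hm' ((Submodule.Quotient.mk_eq_zero A).1 (congrArg Subtype.val e))
  exact ⟨y, hy, fun e => h0 (Subtype.ext ((Submodule.Quotient.mk_eq_zero A).2 e)),
    fun g => (Submodule.Quotient.eq A).1 (congrArg Subtype.val (h1 g))⟩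

end rep

variable {F V : Type} [Field F] [AddCommGroup V] [Module F V] (S : Sp F V)

/-- The elements trivial on `W` and on `W^⊥ / W`. -/
def R (W : Submodule F V) : Subgroup S.G where
  carrier := {g | (∀ w ∈ W, g.1 w = w) ∧ ∀ v, (∀ w ∈ W, S.B v w = 0) → g.1 v - v ∈ W}
  one_mem' := ⟨fun _ _ => rfl, fun v _ => by simp⟩
  mul_mem' := by
    rintro g h ⟨g1, g2⟩ ⟨h1, h2⟩
    refine ⟨fun w hw => by rw [Subgroup.coe_mul, LinearEquiv.mul_apply, h1 w hw, g1 w hw],
      fun v hv => ?_⟩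
    have e : (g * h).1 v - v = g.1 (h.1 v - v) + (g.1 v - v) := by
      rw [Subgroup.coe_mul, LinearEquiv.mul_apply, map_sub]; abel
    rw [e, g1 _ (h2 v hv)]
    exact add_mem (h2 v hv) (g2 v hv)
  inv_mem' := by
    rintro g ⟨g1, g2⟩
    have e : ∀ w ∈ W, g⁻¹.1 w = w := fun w hw => by
      conv_lhs => rw [← g1 w hw]
      exact g.1.symm_apply_apply w
    refine ⟨e, fun v hv => ?_⟩
    have := e _ (g2 v hv)
    rw [map_sub, show g⁻¹.1 (g.1 v) = v from g.1.symm_apply_apply v] at this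
    rw [← neg_sub, this]
    exact neg_mem (g2 v hv)

theorem R_pgroup [Finite F] [Finite V] {p : ℕ} [hp : Fact p.Prime] [CharP F p] (W : Submodule F V) :
    IsPGroup p (R S W) := by
  rintro ⟨g, g1, g2⟩
  have hV : Nontrivial V := Module.nontrivial_of_finrank_pos (R := F) (by
    rw [S.dim]; have := S.hk; omega)
  have : CharP (End F V) p := charP_of_injective_algebraMap (algebraMap F _).injective p
  have h3 : 3 ≤ p := by
    by_contra h
    have : p = 2 := by have := hp.out.two_le; omega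
    subst this
    exact S.two_ne_zero (CharP.cast_eq_zero F 2)
  have h1 : ((g.1 : End F V) - 1) ^ 3 = 0 := by
    ext v
    have h4 := g1 _ (g2 (g.1 v - v) fun w hw => by
      rw [map_sub, LinearMap.sub_apply, sub_eq_zero]
      conv_lhs => rw [← g1 w hw]
      exact g.2 v w)
    simpa [pow_succ, sub_eq_zero] using h4
  have h2 := pow_eq_zero_of_le h3 h1
  rw [sub_pow_char_of_commute p (Commute.one_right _), one_pow, sub_eq_zero] at h2
  refine ⟨1, Subtype.ext (Subtype.ext (LinearEquiv.toLinearMap_injective ?_))⟩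
  rw [pow_one]
  exact (map_pow LinearEquiv.automorphismGroup.toLinearMapMonoidHom g.1 p).trans h2

theorem R_le [Finite F] [Finite V] {p : ℕ} [Fact p.Prime] [CharP F p] (U : Sylow p S.G)
    {W : Submodule F V} (h : ∀ g ∈ (U : Subgroup S.G), g.1 • W = W) : R S W ≤ U := by
  have key : ∀ g ∈ (U : Subgroup S.G), ∀ k ∈ R S W, g * k * g⁻¹ ∈ R S W := by
    rintro g hg k ⟨k1, k2⟩
    have m1 : ∀ w ∈ W, g.1.symm w ∈ W := fun w hw => mem_smul.1 ((h g hg).ge hw)
    have m2 : ∀ w ∈ W, g.1 w ∈ W := fun w hw => (h g hg).le (smul_mem_smul.2 hw)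
    refine ⟨fun w hw => ?_, fun v hv => ?_⟩
    · change g.1 (k.1 (g.1.symm w)) = w
      rw [k1 _ (m1 w hw), LinearEquiv.apply_symm_apply]
    · have := m2 _ (k2 (g.1.symm v) fun w hw => by
        rw [← g.2, LinearEquiv.apply_symm_apply]
        exact hv _ (m2 w hw))
      rwa [map_sub, LinearEquiv.apply_symm_apply] at this
  have h1 : (U : Subgroup S.G) ≤ Subgroup.normalizer (R S W) := fun g hg =>
    Subgroup.mem_normalizer_iff.2 fun k => ⟨key g hg k, fun hk => by
      simpa [mul_assoc] using key _ (inv_mem hg) _ hk⟩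
  exact le_sup_right.trans
    (U.is_maximal' (U.isPGroup'.to_sup_of_normal_right' (R_pgroup S W) h1) le_sup_left).le

theorem eich {W : Submodule F V} (hW : S.Iso W) {u w : V} (hu : u ∈ W)
    (hw : ∀ x ∈ W, S.B x w = 0) :
    ∃ g ∈ R S W, ∀ v, g.1 v = v + S.B v w • u + S.B v u • w := by
  have e : ∀ v, (isoTv S.alt (u + w) 1 * isoTv S.alt u (-1) * isoTv S.alt w (-1)).1 v =
      v + S.B v w • u + S.B v u • w := fun v => by
    have h1 := hw u hu
    have h2 : S.B w u = 0 := S.alt.isRefl _ _ h1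
    simp only [Subgroup.coe_mul, LinearEquiv.mul_apply, coe_isoTv, altTv_apply, map_add, map_smul,
      LinearMap.add_apply, LinearMap.smul_apply, h1, h2, S.alt.self_eq_zero, smul_eq_mul]
    module
  refine ⟨_, ⟨fun x hx => ?_, fun v hv => ?_⟩, e⟩
  · rw [e, hw x hx, hW x hx u hu, zero_smul, zero_smul, add_zero, add_zero]
  · rw [e, hv u hu, zero_smul, add_zero, add_sub_cancel_left]
    exact W.smul_mem _ hu

theorem le_or [Finite F] [Finite V] {W W' : Submodule F V} (hW : S.Iso W)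
    (h : ∀ g ∈ R S W, g.1 • W' = W') : W' ≤ W ∨ W ≤ W' := by
  refine or_iff_not_imp_left.2 fun hn u hu => ?_
  obtain ⟨y, hy, hy'⟩ := SetLike.not_le_iff_exists.1 hn
  have key : ∀ w, (∀ x ∈ W, S.B x w = 0) → S.B y w • u + S.B y u • w ∈ W' := fun w hw => by
    obtain ⟨g, hg, e⟩ := eich S hW hu hw
    have := (h g hg).le (smul_mem_smul.2 hy)
    rwa [e, add_assoc, W'.add_mem_iff_right hy] at this
  by_cases h0 : S.B y u = 0
  · rw [← S.B.orthogonal_orthogonal S.nd S.alt.isRefl W,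
      LinearMap.BilinForm.mem_orthogonal_iff] at hy'
    push Not at hy'
    obtain ⟨w, hw, hw'⟩ := hy'
    have := key w hw
    rwa [h0, zero_smul, add_zero, W'.smul_mem_iff fun e => hw' (S.alt.isRefl _ _ e)] at this
  · have := key u fun x hx => hW x hx u hu
    rwa [← add_smul, ← two_mul, W'.smul_mem_iff (mul_ne_zero S.two_ne_zero h0)] at this

theorem uniq [Finite F] [Finite V] {p : ℕ} [Fact p.Prime] [CharP F p] (U : Sylow p S.G)
    {W W' : Submodule F V} (hW : S.Iso W) (hd : dm W = dm W')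
    (h : ∀ g ∈ (U : Subgroup S.G), g.1 • W = W) (h' : ∀ g ∈ (U : Subgroup S.G), g.1 • W' = W') :
    W = W' := by
  rcases le_or S hW fun g hg => h' g (R_le S U h hg) with e | e
  · exact (Submodule.eq_of_le_of_finrank_eq e hd.symm).symm
  · exact Submodule.eq_of_le_of_finrank_eq e hd

theorem bor' : BorStmt := by
  intro F V _ _ _ _ _ S p _ _ U
  let ρ : Representation F (U : Subgroup S.G) V :=
    LinearEquiv.automorphismGroup.toLinearMapMonoidHom.comp
      (S.G.subtype.comp (U : Subgroup S.G).subtype)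
  have hV : Nontrivial V := Module.nontrivial_of_finrank_pos (R := F) (by
    rw [S.dim]; have := S.hk; omega)
  obtain ⟨m, hm⟩ := exists_ne (0 : V)
  obtain ⟨e, e0, he⟩ := fix1 U.isPGroup' ρ hm
  have he' : ∀ g ∈ (U : Subgroup S.G), g.1 e = e := fun g hg => he ⟨g, hg⟩
  have hx : ∀ g ∈ (U : Subgroup S.G), g.1 • (F ∙ e) = F ∙ e := fun g hg => by
    rw [smul_span, he' g hg]
  have d1 : finrank F (F ∙ e) = 1 := finrank_span_singleton e0
  obtain ⟨y, y1, y2, hy⟩ := fix2 U.isPGroup' ρ (A := F ∙ e) (C := S.B.orthogonal (F ∙ e))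
    (fun g v hv => (hx g g.2).le (smul_mem_smul.2 hv))
    (fun g v hv n hn => by
      obtain ⟨c, rfl⟩ := Submodule.mem_span_singleton.1 hn
      have := hv _ hn
      rwa [← g.1.2, map_smul, he' g g.2] at this)
    (fun h => by
      have := Submodule.finrank_mono h
      rw [LinearMap.BilinForm.finrank_orthogonal S.nd, S.dim, d1] at this
      have := S.hk
      omega)
  have hey : S.B e y = 0 := y1 e (Submodule.mem_span_singleton_self e)
  refine existsUnique_of_exists_of_unique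
    ⟨⟨(F ∙ e, (F ∙ e) ⊔ F ∙ y), d1, ⟨?_, ?_⟩, le_sup_left⟩, fun g hg => ?_⟩ fun a b ha hb => ?_
  · rw [dm, Submodule.finrank_sup_span_singleton y2, d1]
  · intro u hu v hv
    dsimp only at hu hv
    rw [← Submodule.span_insert, Submodule.mem_span_pair] at hu hv
    obtain ⟨a, b, rfl⟩ := hu
    obtain ⟨c, d, rfl⟩ := hv
    simp [hey, S.alt.isRefl _ _ hey, S.alt.self_eq_zero]
  · refine Subtype.ext (Prod.ext (hx g hg) (Submodule.eq_of_le_of_finrank_eq ?_ (dm_smul _ _)))
    change g.1 • ((F ∙ e) ⊔ F ∙ y) ≤ _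
    rw [smul_sup, hx g hg, smul_span]
    refine sup_le le_sup_left ((Submodule.span_singleton_le_iff_mem _ _).2 ?_)
    have := Submodule.add_mem_sup (hy ⟨g, hg⟩) (Submodule.mem_span_singleton_self (R := F) y)
    rwa [sub_add_cancel] at this
  · refine Subtype.ext (Prod.ext ?_ ?_)
    · exact uniq S U (fun u hu v hv => a.2.2.1.2 u (a.2.2.2 hu) v (a.2.2.2 hv))
        (a.2.1.trans b.2.1.symm) (fun g hg => congrArg (·.1.1) (ha g hg))
        fun g hg => congrArg (·.1.1) (hb g hg)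
    · exact uniq S U a.2.2.1.2 (a.2.2.1.1.trans b.2.2.1.1.symm)
        (fun g hg => congrArg (·.1.2) (ha g hg)) fun g hg => congrArg (·.1.2) (hb g hg)

theorem bor (_ : QfStmt) : BorStmt := bor'

end Cfsg.Agent.H40.P3Bor
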