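import Cfsg.Agent.H79.RbDefs

/-! Project RB (S4578): the action of the annihilation operators on Schur's `Q`-functions. -/

set_option autoImplicit false

open Finset

namespace Cfsg.Agent.H40.RbMove

open Cfsg.Agent.H79.RB

theorem AA_one (i : ℕ) : AA i 1 = 0 := by simp [AA]

theorem move_lt {r x : ℕ} {T T' : Finset ℕ} (hT : ∀ y ∈ T, y < x) (h : Move r T T') :
    (∀ y ∈ T', y < x) ∧ Move r (insert x T) (insert x T') := by
  obtain ⟨y, hy, h⟩ := h
  have hx := hT y hy
  have e : (insert x T).erase y = insert x (T.erase y) := erase_insert_of_ne hx.ne'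
  rcases h with ⟨h1, h2, rfl⟩ | ⟨h1, rfl⟩ | ⟨h1, h2, rfl⟩
  · refine ⟨fun z hz => ?_, y, mem_insert_of_mem hy, Or.inl ⟨h1, ?_, by rw [e, insert_comm]⟩⟩
    · rcases mem_insert.1 hz with rfl | hz
      · omega
      · exact hT z (mem_of_mem_erase hz)
    · rw [mem_insert, not_or]
      exact ⟨by omega, h2⟩
  · exact ⟨fun z hz => hT z (mem_of_mem_erase hz), y, mem_insert_of_mem hy, Or.inr (Or.inl ⟨h1, e.symm⟩)⟩
  · refine ⟨fun z hz => hT z (mem_of_mem_erase (mem_of_mem_erase hz)), y, mem_insert_of_mem hy,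
      Or.inr (Or.inr ⟨h1, e ▸ mem_insert_of_mem h2, ?_⟩)⟩
    rw [e, erase_insert_of_ne (hT _ (mem_of_mem_erase h2)).ne']

theorem moveStmt (hB : BasicStmt) (hC : CommStmt) (hA : ActStmt) : MoveStmt := by
  obtain ⟨-, -, -, -, -, -, -, -, -, -, -, b0, b1⟩ := hB
  intro i S
  induction S using Finset.induction_on_max with
  | empty => intro _; rw [b0, AA_one]; exact Submodule.zero_mem _
  | insert x T hT ih =>
    intro h0
    rw [mem_insert, not_or] at h0
    have hx : x ∉ T := fun h => (hT x h).false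
    have e : (insert x T).erase x = T := erase_insert hx
    obtain ⟨a0, a1⟩ := hA T h0.2
    rw [b1 T x hT, hC.2.2.1]
    refine Submodule.add_mem _ ?_ ?_
    · refine Submodule.span_mono ?_ (Submodule.apply_mem_span_image_of_mem_span _ (ih h0.2))
      rintro _ ⟨_, ⟨T', h, rfl⟩, rfl⟩
      exact ⟨_, (move_lt hT h).2, (b1 T' x (move_lt hT h).1).symm⟩
    · generalize hr : 2 * i + 1 = r
      rcases lt_trichotomy r x with h | h | h
      · rw [← Nat.cast_sub h.le]
        obtain ⟨c1, c2, -, -⟩ := a1 (x - r) (by omega)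
        by_cases hm : x - r ∈ T
        · rw [c1 hm]; exact Submodule.zero_mem _
        · obtain ⟨ε, -, hε⟩ := c2 hm
          rw [hε]
          refine Submodule.smul_mem _ _ (Submodule.subset_span ⟨_, ⟨x, mem_insert_self _ _,
            Or.inl ⟨h, ?_, by rw [e]⟩⟩, rfl⟩)
          rw [mem_insert, not_or]
          exact ⟨by omega, hm⟩
      · rw [h, sub_self, a0]
        exact Submodule.smul_mem _ _ (Submodule.subset_span ⟨_, ⟨x, mem_insert_self _ _,
          Or.inr (Or.inl ⟨rfl, e.symm⟩)⟩, rfl⟩)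
      · rw [← neg_sub, ← Nat.cast_sub h.le]
        obtain ⟨-, -, c1, c2⟩ := a1 (r - x) (by omega)
        by_cases hm : r - x ∈ T
        · obtain ⟨ε, -, hε⟩ := c2 hm
          rw [hε]
          exact Submodule.smul_mem _ _ (Submodule.subset_span ⟨_, ⟨x, mem_insert_self _ _,
            Or.inr (Or.inr ⟨h, by rwa [e], by rw [e]⟩)⟩, rfl⟩)
        · rw [c1 hm]; exact Submodule.zero_mem _

theorem recStmt (hB : BasicStmt) (hC : CommStmt) (hA : ActStmt) : RecStmt := by
  obtain ⟨-, -, -, -, -, -, -, -, -, -, -, b0, b1⟩ := hB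
  intro S
  induction S using Finset.induction_on_max with
  | empty => intro _; rw [b0, AA_one]; simp
  | insert x T hT ih =>
    intro h0
    rw [mem_insert, not_or] at h0
    have hx : x ∉ T := fun h => (hT x h).false
    have hx0 : 1 ≤ x := Nat.pos_of_ne_zero fun h => h0.1 h.symm
    obtain ⟨a0, a1⟩ := hA T h0.2
    have e1 : T.filter (fun y => y - 1 ∉ insert x T) = T.filter (fun y => y - 1 ∉ T) :=
      filter_congr fun y hy => by
        have := hT y hy
        rw [mem_insert, not_or, and_iff_right (by omega)]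
    have e2 : ∀ y ∈ T.filter (fun y => y - 1 ∉ T), phi x (QS (dn T y)) = QS (dn (insert x T) y) :=
      fun y hy => by
        have h1 := hT y (mem_filter.1 hy).1
        rw [← b1 _ x fun z hz => by
          rcases mem_insert.1 (mem_of_mem_erase hz) with rfl | hz
          · omega
          · exact hT z (mem_of_mem_erase hz), dn, dn, erase_insert_of_ne h1.ne', insert_comm,
          erase_insert_of_ne (Ne.symm h0.1)]
    rw [b1 T x hT, hC.2.2.1, ih h0.2, map_sum, sum_congr rfl e2, filter_insert, e1,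
      show (x : ℤ) - (2 * 0 + 1 : ℕ) = (x - 1 : ℕ) by omega]
    by_cases hm : x - 1 ∈ T
    · rw [if_neg (not_not.2 (mem_insert_of_mem hm)),
        (a1 (x - 1) (Nat.pos_of_ne_zero fun h => h0.2 (h ▸ hm))).1 hm, add_zero]
    · rw [if_pos (by rw [mem_insert, not_or]; exact ⟨by omega, hm⟩),
        sum_insert fun h => hx (mem_filter.1 h).1, add_comm]
      refine congrArg₂ (· + ·) ?_ rfl
      rw [dn, erase_insert hx]
      rcases Nat.eq_zero_or_pos (x - 1) with h | h
      · have : T = ∅ := eq_empty_of_forall_notMem fun y hy => by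
          have := hT y hy
          exact h0.2 ((show y = 0 by omega) ▸ hy)
        subst this
        rw [h, erase_insert (notMem_empty _)]
        simpa using a0
      · rw [erase_eq_of_notMem (by rw [mem_insert, not_or]; exact ⟨h.ne, h0.2⟩), b1]
        intro y hy
        have := hT y hy
        have : y ≠ x - 1 := fun e => hm (e ▸ hy)
        omega

theorem mnStmt' (hM : MoveStmt) (hW : WtStmt) : MnStmt := by
  intro i k
  induction k with
  | zero => exact fun S m h0 _ _ => (hW _ S h0).1
  | succ k ih =>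
    intro S m h0 hm hk
    obtain ⟨m', rfl⟩ : ∃ m', m = m' + Finsupp.single i 1 :=
      ⟨m - Finsupp.single i 1, (tsub_add_cancel_of_le (Finsupp.single_le_iff.2 (by omega))).symm⟩
    have h1 : MvPolynomial.coeff m' (AA i (QS S)) ≠ 0 := by
      rw [AA, LinearMap.smul_apply, MvPolynomial.coeff_smul, smul_eq_mul]
      refine mul_ne_zero (div_ne_zero (Nat.cast_ne_zero.2 (by omega)) two_ne_zero) ?_
      change MvPolynomial.coeff m' (MvPolynomial.pderiv i (QS S)) ≠ 0
      rw [MvPolynomial.coeff_pderiv]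
      exact mul_ne_zero hm (Nat.cast_add_one_ne_zero _)
    obtain ⟨S', h2, h3⟩ : ∃ S', Move (2 * i + 1) S S' ∧ MvPolynomial.coeff m' (QS S') ≠ 0 := by
      by_contra hn
      push Not at hn
      refine h1 (Submodule.span_le (p := LinearMap.ker (MvPolynomial.lcoeff ℂ m')).2 ?_ (hM i S h0))
      rintro _ ⟨S', h, rfl⟩
      exact hn S' h
    obtain ⟨h4, h5⟩ := (hW _ S h0).2 ⟨i, rfl⟩ S' h2
    have := ih S' m' h4 h3 (by simpa using hk)
    push_cast
    omega

theorem mnStmt (hB : BasicStmt) (hC : CommStmt) (hA : ActStmt) (hW : WtStmt) : MnStmt :=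
  mnStmt' (moveStmt hB hC hA) hW

end Cfsg.Agent.H40.RbMove
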