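import Cfsg.Agent.S4549
import Cfsg.Agent.S4553
import Cfsg.Agent.S4550

/-! Piece statements for S4548 (cyclic Sylow 2-subgroups and fixed odd-degree characters). -/

set_option autoImplicit false
open Cfsg

namespace Cfsg.Agent.H40.Sg

universe u

/-- The odd-degree members of the principal block fixed by `g ↦ g ^ k`. -/
abbrev Fx {G : Type u} [Group G] (M : Ideal Cfsg.AlgInt) (k : ℕ) : Type u :=
  {χ : Cfsg.IrrCharacter G // χ ∈ Cfsg.principalBlock M G ∧ Odd (Cfsg.charDegree (χ : G → ℂ)) ∧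
    ∀ g : G, (χ : G → ℂ) (g ^ k) = (χ : G → ℂ) g}

/-- Two fixed characters: both are linear. -/
def TrkStmt : Prop :=
  ∀ {G : Type u} [Group G] [Finite G] (M : Ideal Cfsg.AlgInt), Cfsg.IsPModular 2 M →
    Even (Nat.card G) → ∀ k : ℕ, (∀ g : G, (∃ j : ℕ, orderOf g = 2 ^ j) → g ^ k = g ^ 3) →
    (∀ g : G, Odd (orderOf g) → g ^ k = g) → Nat.card (Fx (G := G) M k) = 2 →
    ∀ χ : Fx (G := G) M k, Cfsg.charDegree (χ.1 : G → ℂ) = 1

/-- Cyclic Sylow subgroup: exactly two fixed characters. -/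
def CycStmt : Prop :=
  ∀ {G : Type u} [Group G] [Finite G] (M : Ideal Cfsg.AlgInt), Cfsg.IsPModular 2 M →
    Even (Nat.card G) → ∀ (P : Sylow 2 G) (k : ℕ),
    (∀ g : G, (∃ j : ℕ, orderOf g = 2 ^ j) → g ^ k = g ^ 3) →
    (∀ g : G, Odd (orderOf g) → g ^ k = g) → IsCyclic P → Nat.card (Fx (G := G) M k) = 2

/-- Normal complement and non-cyclic Sylow subgroup: at least three fixed characters. -/
def NcStmt : Prop :=
  ∀ {G : Type u} [Group G] [Finite G] (M : Ideal Cfsg.AlgInt), Cfsg.IsPModular 2 M →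
    ∀ (P : Sylow 2 G) (k : ℕ),
    (∀ g : G, (∃ j : ℕ, orderOf g = 2 ^ j) → g ^ k = g ^ 3) →
    (∀ g : G, Odd (orderOf g) → g ^ k = g) → Cfsg.HasNormalPComplement 2 G → ¬ IsCyclic P →
    Nat.card (Fx (G := G) M k) ≠ 2

theorem main (trk : TrkStmt.{u}) (cyc : CycStmt.{u}) (nc : NcStmt.{u})
    {G : Type u} [Group G] [Finite G] (M : Ideal Cfsg.AlgInt) (hM : Cfsg.IsPModular 2 M)
    (hev : Even (Nat.card G)) (P : Sylow 2 G) (k : ℕ)
    (hk₁ : ∀ g : G, (∃ j : ℕ, orderOf g = 2 ^ j) → g ^ k = g ^ 3)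
    (hk₂ : ∀ g : G, Odd (orderOf g) → g ^ k = g) :
    IsCyclic P ↔ Nat.card (Fx (G := G) M k) = 2 := by
  refine ⟨cyc M hM hev P k hk₁ hk₂, fun h => ?_⟩
  by_contra hP
  refine nc M hM P k hk₁ hk₂ ?_ hP h
  rw [Cfsg.Agent.S4549.result M hM k hk₁ hk₂]
  intro χ h1 h2 h3
  exact trk M hM hev k hk₁ hk₂ h ⟨χ, h1, h2, h3⟩

end Cfsg.Agent.H40.Sg
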