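import Cfsg.Agent.H40.SgDefs
import Cfsg.Agent.S0191
import Cfsg.Agent.S0907

/-! Two fixed odd-degree characters in the principal block: both are linear. -/

set_option autoImplicit false
open Cfsg
open scoped ComplexConjugate

namespace Cfsg.Agent.H40.Sg

universe u

theorem deg_one_of_ne_zero {G : Type u} [Group G] [Finite G] (χ : IrrCharacter G)
    (nz : ∀ g, χ.1 g ≠ 0) : charDegree χ.1 = 1 := by
  obtain ⟨χ, n, ρ, hρ, rfl⟩ := χ
  have h1 : ρ.character 1 = (Module.finrank ℂ (Fin n → ℂ) : ℂ) := ρ.char_one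
  have h2 : ρ.character 1 = ((1 : ℕ) : ℂ) := by
    rw [h1]
    rcases lt_trichotomy 1 (Module.finrank ℂ (Fin n → ℂ)) with l | l | l
    · obtain ⟨g, hg⟩ := S0191.result ρ l
      exact absurd hg (nz g)
    · rw [← l]
    · exact absurd (by
        change ρ.character 1 = 0
        rw [h1, Nat.lt_one_iff.1 l, Nat.cast_zero]) (nz 1)
  exact H19.charDegree_eq_of_eq h2

open Classical in
theorem sum_fixed {G : Type u} [Group G] [Finite G] [Fintype (IrrCharacter G)]
    (M : Ideal Cfsg.AlgInt) (hM : Cfsg.IsPModular 2 M) (hev : Even (Nat.card G)) (k : ℕ)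
    (hk₁ : ∀ g : G, (∃ j : ℕ, orderOf g = 2 ^ j) → g ^ k = g ^ 3)
    (hk₂ : ∀ g : G, Odd (orderOf g) → g ^ k = g) (x : G) (hx : (orderOf x).Coprime 2) :
    ∑ χ : IrrCharacter G, (if χ ∈ principalBlock M G ∧ Odd (charDegree χ.1) ∧
      ∀ g : G, χ.1 (g ^ k) = χ.1 g then H19.red M (χ.1 x) else 0) = 0 := by
  haveI : Fact (Nat.Prime 2) := ⟨Nat.prime_two⟩
  haveI := H19.charP_kk hM
  have hk₂' : ∀ g : G, (orderOf g).Coprime 2 → g ^ k = g := fun g h =>
    hk₂ g (Nat.coprime_two_right.1 h)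
  have hk := H19.coprime_of_parts Nat.prime_two (by norm_num) hk₁ hk₂'
  have hpow := H19.pow_pow_eq_of_parts Nat.prime_two (by norm_num [Nat.ModEq]) hk₁ hk₂'
  obtain ⟨y, hy⟩ := exists_prime_orderOf_dvd_card' (G := G) 2 hev.two_dvd
  have h := S0907.result 2 M hM (principalBlock M G) H19.isPBlock_principalBlock x y
    ((Nat.Prime.coprime_iff_not_dvd Nat.prime_two).1 hx.symm) (hy ▸ dvd_rfl)
  rw [H17.finsum_mem_irr] at h
  have h2 := congrArg (H19.red M) h
  have hy2 : y⁻¹ ^ 2 ^ 1 = 1 := by rw [pow_one, inv_pow, ← hy, pow_orderOf_eq_one, inv_one]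
  have h3 : ∀ χ : IrrCharacter G, H19.red M (χ.1 x * conj (χ.1 y)) =
      H19.red M (χ.1 x) * (charDegree χ.1 : H19.kk M) := fun χ => by
    rw [← H12.IsCharacter_inv (H11.irr_isCharacter χ), H19.red_mul (H19.irr_mem_Vr χ _)
      (H19.irr_mem_Vr χ _), H19.red_char_p_elem hM (H11.irr_isCharacter χ) hy2,
      ← H19.charDegree_cast_irr, H19.red_natCast]
  rw [H19.red_zero, H19.red_sum (fun χ _ => by
    rw [← H12.IsCharacter_inv (H11.irr_isCharacter χ)]
    exact mul_mem (H19.irr_mem_Vr χ _) (H19.irr_mem_Vr χ _))] at h2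
  simp only [h3] at h2
  rw [Finset.sum_filter, H19.sum_irr_eq_sum_fixed Nat.prime_two hk hpow] at h2
  · refine Eq.trans ?_ h2
    rw [Finset.sum_filter]
    refine Finset.sum_congr rfl fun χ _ => ?_
    by_cases h1 : χ ∈ Cfsg.principalBlock M G
    · by_cases h2 : ∀ g : G, χ.1 (g ^ k) = χ.1 g
      · rcases Nat.even_or_odd (Cfsg.charDegree χ.1) with h3 | h3
        · have : (Cfsg.charDegree χ.1 : H19.kk M) = 0 :=
            (CharP.cast_eq_zero_iff (H19.kk M) 2 _).2 h3.two_dvd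
          rw [if_neg (fun h => Nat.not_odd_iff_even.2 h3 h.2.1), if_pos h2, if_pos h1, this,
            mul_zero]
        · have : (Cfsg.charDegree χ.1 : H19.kk M) = 1 := by
            obtain ⟨j, hj⟩ := h3
            have h2 : ((2 : ℕ) : H19.kk M) = 0 := CharP.cast_eq_zero _ 2
            rw [hj, Nat.cast_add, Nat.cast_mul, h2, zero_mul, zero_add, Nat.cast_one]
          rw [if_pos ⟨h1, h3, h2⟩, if_pos h2, if_pos h1, this, mul_one]
      · rw [if_neg (fun h => h2 h.2.2), if_neg h2]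
    · rw [if_neg (fun h => h1 h.1), if_neg h1, ite_self]
  · intro χ
    simp only [H19.powIrr_mem_principalBlock_iff, H19.charDegree_powIrr, H19.powIrr_apply,
      hk₂' x hx]
  · intro χ
    rw [nsmul_eq_mul, CharP.cast_eq_zero, zero_mul]

theorem trk : TrkStmt.{u} := by
  classical
  intro G _ _ M hM hev k hk₁ hk₂ hc χ
  letI : Fintype (Cfsg.IrrCharacter G) := Fintype.ofFinite _
  let o : Fx (G := G) M k := ⟨H19.oneIrr G, H19.oneIrr_mem_principalBlock hM.2.1, by
    have : Cfsg.charDegree (H19.oneIrr G).1 = 1 := H24.deg_one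
    rw [this]; exact odd_one, fun _ => rfl⟩
  by_cases hχ : χ = o
  · rw [hχ]; exact H24.deg_one
  obtain ⟨z, -, hz⟩ := (Nat.card_eq_two_iff' o).1 hc
  have hall : ∀ ψ : Fx (G := G) M k, ψ = o ∨ ψ = χ := fun ψ => by
    by_cases h : ψ = o
    · exact Or.inl h
    · exact Or.inr ((hz ψ h).trans (hz χ hχ).symm)
  refine deg_one_of_ne_zero χ.1 fun g hg => ?_
  obtain ⟨a, b, ha, hb, hab, ⟨j, hj⟩, hcop⟩ := H13.exists_p_parts Nat.prime_two g
  have h1 : H19.red M (χ.1.1 b) = 0 := by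
    rw [← H19.red_char_mul hM (H11.irr_isCharacter χ.1) hj (H13.commute_of_mem_zpowers ha hb),
      ← hab, hg, H19.red_zero]
  have h2 := sum_fixed M hM hev k hk₁ hk₂ b hcop
  rw [Finset.sum_eq_single o.1] at h2
  · rw [if_pos o.2] at h2
    have : H19.red M (o.1.1 b) = 1 := H19.red_one
    rw [this] at h2
    exact one_ne_zero h2
  · intro ψ _ hne
    split_ifs with h
    · rcases hall ⟨ψ, h⟩ with e | e
      · exact absurd (congrArg Subtype.val e) hne
      · rw [show ψ = χ.1 from congrArg Subtype.val e, h1]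
    · rfl
  · intro h; exact absurd (Finset.mem_univ _) h

end Cfsg.Agent.H40.Sg
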