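import Cfsg.Agent.H58.SWDefs

/-! Project SW, piece PAR1: `PunStmt` and `Par1LStmt`. -/

set_option autoImplicit false
set_option linter.unusedVariables false
set_option linter.unusedSectionVars false
set_option linter.style.haveILetI false
open Matrix Cfsg
open scoped commutatorElement

namespace Cfsg.Agent.H40.SwPar1

open Cfsg.Agent.H58.SW

theorem pel_mul {G : Type*} [Group G] [Finite G] (p : ℕ) [Fact p.Prime]
    (h : ∀ x : G, ∃ k : ℕ, x ^ (p ^ k) ∈ Subgroup.center G) (x y : G)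
    (hx : ∃ k : ℕ, x ^ (p ^ k) = 1) (hy : ∃ k : ℕ, y ^ (p ^ k) = 1) :
    ∃ k : ℕ, (x * y) ^ (p ^ k) = 1 := by
  have hq : IsPGroup p (G ⧸ Subgroup.center G) := by
    intro g
    obtain ⟨g, rfl⟩ := QuotientGroup.mk_surjective g
    obtain ⟨k, hk⟩ := h g
    refine ⟨k, ?_⟩
    rw [← QuotientGroup.mk_pow, QuotientGroup.eq_one_iff]
    exact hk
  haveI : Group.IsNilpotent (G ⧸ Subgroup.center G) := hq.isNilpotent
  haveI : Group.IsNilpotent G :=
    Subgroup.isNilpotent_of_ker_le_center (QuotientGroup.mk' (Subgroup.center G))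
      (by rw [QuotientGroup.ker_mk'])
  obtain ⟨P⟩ : Nonempty (Sylow p G) := inferInstance
  have hP : (P : Subgroup G).Normal := inferInstance
  have hu := Sylow.unique_of_normal P hP
  have key : ∀ z : G, (∃ k : ℕ, z ^ (p ^ k) = 1) → z ∈ (P : Subgroup G) := by
    rintro z ⟨k, hk⟩
    have hz : IsPGroup p (Subgroup.zpowers z) := by
      rintro ⟨w, m, rfl⟩
      refine ⟨k, Subtype.ext ?_⟩
      show (z ^ m) ^ (p ^ k) = 1
      rw [← _root_.zpow_natCast, ← _root_.zpow_mul, mul_comm, _root_.zpow_mul, _root_.zpow_natCast, hk,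
        _root_.one_zpow]
    obtain ⟨R, hR⟩ := hz.exists_le_sylow
    have : R = P := Subsingleton.elim _ _
    rw [← this]
    exact hR (Subgroup.mem_zpowers z)
  obtain ⟨k, hk⟩ := P.isPGroup' ⟨x * y, mul_mem (key x hx) (key y hy)⟩
  exact ⟨k, congrArg Subtype.val hk⟩

theorem pun (hKA : KAStmt) (hKT : KTStmt) (hKV : KVStmt) : PunStmt := by
  intro F _ _ _ n c r H Q hL hr X hZX hXQ hinv
  have ka := hKA F n c
  have kt := hKT F n c
  have kv := hKV F n c
  haveI : Fact c.p.Prime := ⟨c.hp⟩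
  have hc : ∀ x : X, ∃ k : ℕ, x ^ (c.p ^ k) ∈ Subgroup.center X := by
    intro x
    obtain ⟨k, hk⟩ := hL.rgrp x (hXQ x.2)
    refine ⟨k, Subgroup.mem_center_iff.mpr fun g => Subtype.ext ?_⟩
    rw [hr] at hk
    exact ((ka.zcomm _ hk g).eq).symm
  let X0 : Subgroup (Gl n F) :=
    { carrier := {x | x ∈ X ∧ Unip x}
      one_mem' := ⟨one_mem _, (kv.upow 1).mpr ⟨0, one_pow _⟩⟩
      mul_mem' := by
        rintro a b ⟨ha, ha'⟩ ⟨hb, hb'⟩
        refine ⟨mul_mem ha hb, (kv.upow _).mpr ?_⟩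
        obtain ⟨k, hk⟩ := (kv.upow a).mp ha'
        obtain ⟨l, hl⟩ := (kv.upow b).mp hb'
        obtain ⟨m, hm⟩ := pel_mul c.p hc ⟨a, ha⟩ ⟨b, hb⟩ ⟨k, Subtype.ext hk⟩ ⟨l, Subtype.ext hl⟩
        exact ⟨m, congrArg Subtype.val hm⟩
      inv_mem' := by
        rintro a ⟨ha, ha'⟩
        refine ⟨inv_mem ha, (kv.upow _).mpr ?_⟩
        obtain ⟨k, hk⟩ := (kv.upow a).mp ha'
        exact ⟨k, by rw [inv_pow, hk, inv_one]⟩ }
  have hmem : ∀ x, x ∈ X0 ↔ x ∈ X ∧ Unip x := fun x => Iff.rfl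
  refine ⟨X0, ?_, ?_, ?_, ?_, hmem⟩
  · intro ψ hψ y hy
    exact ⟨hinv ψ hψ y hy.1, kt.unip ψ (hL.std ψ hψ) y hy.2⟩
  · intro y hy
    exact (ka.mem_S y).mpr ⟨((ka.mem_hat H y).mp (hL.qh (hXQ hy.1))).1, kv.udet y hy.2⟩
  · obtain ⟨x, hxX, hxZ⟩ := SetLike.exists_of_lt hZX
    intro hbot
    obtain ⟨k, hk⟩ := hL.rgrp x (hXQ hxX)
    have h1 : (x ^ (r ^ k)) ^ c.zc = 1 := by
      have := pow_card_eq_one' (G := c.Z) (x := ⟨_, hk⟩)
      rw [ka.card_Z] at this
      exact congrArg Subtype.val this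
    have h2 : x ^ c.zc ∈ X0 := by
      refine ⟨pow_mem hxX _, (kv.upow _).mpr ⟨k, ?_⟩⟩
      rw [← pow_mul, mul_comm, pow_mul, ← hr, h1]
    rw [hbot, Subgroup.mem_bot] at h2
    refine hxZ (kv.cop r H Q hL x (hXQ hxX) c.zc ?_ (by rw [h2]; exact one_mem _))
    rw [hr]
    exact ((Nat.Prime.coprime_iff_not_dvd c.hp).mpr ka.pz).symm
  · intro y
    obtain ⟨k, hk⟩ := (kv.upow y).mp y.2.2
    exact ⟨k, Subtype.ext hk⟩

section
variable {F : Type} [Field F] [Fintype F] [DecidableEq F] {n : ℕ}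

/-- a `p`-group has a nonzero fixed vector in every nonzero invariant subspace -/
theorem exists_fix (p : ℕ) (hp : p.Prime) [CharP F p] (X : Subgroup (Gl n F)) (hX : IsPGroup p X)
    (W : Submodule F (Vc n F)) (hW : W ≠ ⊥) (hs : ∀ x ∈ X, Stab x W) :
    ∃ v ∈ W, v ≠ 0 ∧ ∀ x ∈ X, (x : Mt n F) *ᵥ v = v := by
  haveI : Fact p.Prime := ⟨hp⟩
  letI : MulAction X W :=
    { smul := fun x w => ⟨((x : Gl n F) : Mt n F) *ᵥ (w : Vc n F), hs x x.2 w w.2⟩
      one_smul := fun w => Subtype.ext (by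
        show (((1 : X) : Gl n F) : Mt n F) *ᵥ (w : Vc n F) = w
        simp)
      mul_smul := fun x y w => Subtype.ext (by
        show (((x * y : X) : Gl n F) : Mt n F) *ᵥ (w : Vc n F) =
          ((x : Gl n F) : Mt n F) *ᵥ (((y : Gl n F) : Mt n F) *ᵥ (w : Vc n F))
        simp [Matrix.mulVec_mulVec]) }
  obtain ⟨w, hw, hw0⟩ := (Submodule.ne_bot_iff W).mp hW
  have hd : p ∣ Nat.card W := by
    have h1 : addOrderOf (⟨w, hw⟩ : W) = p := by
      refine addOrderOf_eq_prime ?_ (fun h => hw0 (congrArg Subtype.val h))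
      rw [← Nat.cast_smul_eq_nsmul F, CharP.cast_eq_zero, zero_smul]
    rw [← h1]
    exact addOrderOf_dvd_natCard _
  have h0 : (0 : W) ∈ MulAction.fixedPoints X W := by
    intro x
    refine Subtype.ext ?_
    show ((x : Gl n F) : Mt n F) *ᵥ (0 : Vc n F) = 0
    exact Matrix.mulVec_zero _
  obtain ⟨b, hb, hb0⟩ := hX.exists_fixed_point_of_prime_dvd_card_of_fixed_point W hd h0
  refine ⟨b, b.2, fun h => hb0 (Subtype.ext h.symm), fun x hx => ?_⟩
  exact congrArg Subtype.val (hb ⟨x, hx⟩)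

/-- the stabiliser of a subspace -/
def stG (W : Submodule F (Vc n F)) : Subgroup (Gl n F) where
  carrier := {x | Stab x W}
  one_mem' := by intro v hv; simpa using hv
  mul_mem' := by
    intro a b ha hb v hv
    rw [Units.val_mul, ← Matrix.mulVec_mulVec]
    exact ha _ (hb v hv)
  inv_mem' := by
    intro a ha v hv
    have hm : Set.MapsTo (fun w => (a : Mt n F) *ᵥ w) (W : Set (Vc n F)) W := fun w hw => ha w hw
    have hi : Function.Injective (fun w : Vc n F => (a : Mt n F) *ᵥ w) := by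
      intro w w' h
      have := congrArg (fun u => ((a⁻¹ : Gl n F) : Mt n F) *ᵥ u) h
      simpa [Matrix.mulVec_mulVec] using this
    obtain ⟨w, hw, rfl⟩ := (((Set.toFinite _).injOn_iff_bijOn_of_mapsTo hm).mp hi.injOn).surjOn hv
    simpa [Matrix.mulVec_mulVec] using hw

theorem moves (c : Cl F n) (ka : KA c) (kv : KV c) (hu : c.u = false) (Y : Submodule F (Vc n F))
    (hb : Y ≠ ⊥) (ht : Y ≠ ⊤) : ∃ s ∈ c.S, ¬ Stab s Y := by
  obtain ⟨y, hy, hy0⟩ := (Submodule.ne_bot_iff Y).mp hb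
  obtain ⟨w, hw⟩ : ∃ w, w ∉ Y := by
    by_contra h
    push Not at h
    exact ht (Submodule.eq_top_iff'.mpr h)
  have hyw : y ∉ Submodule.span F ({w} : Set (Vc n F)) := by
    intro h
    obtain ⟨a, rfl⟩ := Submodule.mem_span_singleton.mp h
    have ha : a ≠ 0 := by rintro rfl; simp at hy0
    exact hw ((Y.smul_mem_iff ha).mp hy)
  obtain ⟨f, hf, hf0⟩ := Submodule.exists_dual_map_eq_bot_of_notMem hyw inferInstance
  have hfw : f w = 0 := by
    have : f w ∈ (Submodule.span F ({w} : Set (Vc n F))).map f :=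
      Submodule.mem_map_of_mem (Submodule.mem_span_singleton_self w)
    rwa [hf0, Submodule.mem_bot] at this
  let ν : Mt n F := LinearMap.toMatrix' (LinearMap.smulRight f w)
  have hν : ∀ v, ν *ᵥ v = f v • w := by
    intro v
    rw [← Matrix.toLin'_apply, Matrix.toLin'_toMatrix']
    rfl
  have hnil : IsNilpotent ν := by
    refine ⟨2, ?_⟩
    apply Matrix.toLin'.injective
    refine LinearMap.ext fun v => ?_
    rw [Matrix.toLin'_apply, Matrix.toLin'_apply, pow_two, ← Matrix.mulVec_mulVec, hν, hν, map_smul,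
      hfw]
    simp
  obtain ⟨g, hg, hdet, -⟩ := kv.nil ν hnil
  refine ⟨g, (ka.mem_S g).mpr ⟨(ka.mem_St g).mpr (by simp [hu]), hdet⟩, fun hs => ?_⟩
  have h1 := hs y hy
  rw [hg, Matrix.add_mulVec, Matrix.one_mulVec, hν] at h1
  have h2 : f y • w ∈ Y := by simpa using Y.sub_mem h1 hy
  exact hw ((Y.smul_mem_iff hf).mp h2)

theorem flag_of (c : Cl F n) (ka : KA c) (kt : KT c) (kv : KV c) (hKD : KDStmt) (hu : c.u = false)
    {r : ℕ} {H : Subgroup (Au n F)} {Q : Subgroup (Gl n F)} (hL : Loc c r H Q)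
    (Y Y' : Submodule F (Vc n F)) (nb : Y ≠ ⊥) (nt : Y' ≠ ⊤) (le : Y ≤ Y')
    (hpos : ∀ ψ ∈ H, ∀ t, c.Ind t ψ → t.neg = false →
      (∀ v ∈ Y, t.av v ∈ Y) ∧ ∀ v ∈ Y', t.av v ∈ Y')
    (hneg : ∀ ψ ∈ H, ∀ t, c.Ind t ψ → t.neg = true → t.du Y = Y' ∧ t.du Y' = Y)
    (lin : Y = Y' ∨ ∃ ψ ∈ H, ∃ t, c.Ind t ψ ∧ t.neg = true ∧ t.du Y = Y' ∧ t.du Y' = Y) :
    Flag c H Y Y' := by
  refine ⟨nb, nt, le, ?_, ?_, fun h => by simp [hu] at h, fun _ => lin⟩
  · intro a ha
    obtain ⟨h1, h2⟩ := (ka.mem_hat H a).mp ha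
    exact hpos _ h2 _ (kt.conj a h1).1 rfl
  · intro s hs h1 h2
    have posS : ∀ (t : Tau F n) (W : Submodule F (Vc n F)), t.neg = false → (∀ v ∈ W, t.av v ∈ W) →
        ∀ x : Mt n F, (∀ v ∈ W, x *ᵥ v ∈ W) → ∀ v ∈ W, t.ap x *ᵥ v ∈ W := by
      intro t W ht hm x hx v hv
      have hm' : Set.MapsTo t.av (W : Set (Vc n F)) W := fun w hw => hm w hw
      obtain ⟨w, hw, rfl⟩ :=
        (((Set.toFinite _).injOn_iff_bijOn_of_mapsTo hm').mp (kt.av_bij t).1.injOn).surjOn hv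
      rw [kt.vec t ht]
      exact hm _ (hx w hw)
    refine hL.maxP (c.S ⊓ (stG Y ⊓ stG Y')) inf_le_left ?_ ?_ ⟨hs, h1, h2⟩
    · rintro ψ hψ y ⟨hyS, hy1, hy2⟩
      obtain ⟨t, ht⟩ := hL.std ψ hψ
      refine ⟨((kt.pres ψ ⟨t, ht⟩ y).2.1).mpr hyS, ?_⟩
      have hform := ht.2.2 y
      cases hn : t.neg
      · rw [hn] at hform
        simp only [Bool.false_eq_true, if_false] at hform
        obtain ⟨p1, p2⟩ := hpos ψ hψ t ht hn
        refine ⟨?_, ?_⟩
        · intro v hv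
          rw [hform]
          exact posS t Y hn p1 _ hy1 v hv
        · intro v hv
          rw [hform]
          exact posS t Y' hn p2 _ hy2 v hv
      · rw [hn] at hform
        simp only [if_true] at hform
        obtain ⟨p1, p2⟩ := hneg ψ hψ t ht hn
        have kd := hKD F n t hn
        have i1 : y⁻¹ ∈ stG Y := inv_mem hy1
        have i2 : y⁻¹ ∈ stG Y' := inv_mem hy2
        refine ⟨?_, ?_⟩
        · intro v hv
          rw [hform]
          have := (kd.map _ Y' Y').mp i2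
          rw [p2] at this
          exact this v hv
        · intro v hv
          rw [hform]
          have := (kd.map _ Y Y).mp i1
          rw [p1] at this
          exact this v hv
    · intro hle
      obtain ⟨g, hg, hg'⟩ := moves c ka kv hu Y nb (fun h => nt (top_le_iff.mp (h ▸ le)))
      have : c.S ⊓ (stG Y ⊓ stG Y') ⊔ c.Z ≤ stG Y := by
        refine sup_le (inf_le_right.trans inf_le_left) ?_
        intro z hz v hv
        obtain ⟨a, -, ha⟩ := (ka.mem_Z z).mp hz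
        rw [ha, Matrix.smul_mulVec, Matrix.one_mulVec]
        exact Y.smul_mem a hv
      exact hg' (this (hle hg))

/-- fixed vectors -/
def fixW (X : Subgroup (Gl n F)) : Submodule F (Vc n F) where
  carrier := {v | ∀ x ∈ X, (x : Mt n F) *ᵥ v = v}
  add_mem' := by
    intro a b ha hb x hx
    rw [Matrix.mulVec_add, ha x hx, hb x hx]
  zero_mem' := by intro x hx; simp
  smul_mem' := by
    intro a v hv x hx
    rw [Matrix.mulVec_smul, hv x hx]

/-- the commutator space -/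
def comW (X : Subgroup (Gl n F)) : Submodule F (Vc n F) :=
  Submodule.span F {u | ∃ x ∈ X, ∃ v, u = ((x : Mt n F) - 1) *ᵥ v}

theorem mem_comW (X : Subgroup (Gl n F)) (x : Gl n F) (hx : x ∈ X) (v : Vc n F) :
    ((x : Mt n F) - 1) *ᵥ v ∈ comW X := Submodule.subset_span ⟨x, hx, v, rfl⟩

theorem surjX {H : Subgroup (Au n F)} {X : Subgroup (Gl n F)} (h : InvG H X) (ψ : Au n F)
    (hψ : ψ ∈ H) (y : Gl n F) (hy : y ∈ X) : ∃ x ∈ X, ψ x = y :=
  ⟨ψ⁻¹ y, h _ (inv_mem hψ) y hy, by simp⟩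

end

theorem par1L (hKA : KAStmt) (hKT : KTStmt) (hKD : KDStmt) (hKV : KVStmt) : Par1LStmt := by
  intro F _ _ _ n c r H Q hL hu X hinv hX hp
  have ka := hKA F n c
  have kt := hKT F n c
  have kv := hKV F n c
  haveI := c.chr
  obtain ⟨x0, hx0, hx1⟩ : ∃ x0 ∈ X, x0 ≠ 1 := by
    by_contra h
    push Not at h
    exact hX ((Subgroup.eq_bot_iff_forall _).mpr h)
  have hne : ∃ v, ((x0 : Mt n F) - 1) *ᵥ v ≠ 0 := by
    by_contra h
    push Not at h
    apply hx1
    apply Units.ext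
    have : (x0 : Mt n F) - 1 = 0 := by
      apply Matrix.toLin'.injective
      refine LinearMap.ext fun v => ?_
      rw [Matrix.toLin'_apply, h v]
      simp
    exact sub_eq_zero.mp this
  obtain ⟨v0, hv0⟩ := hne
  have h1t : fixW X ≠ ⊤ := by
    intro h
    have : v0 ∈ fixW X := by rw [h]; trivial
    apply hv0
    rw [Matrix.sub_mulVec, Matrix.one_mulVec, this x0 hx0, sub_self]
  have h2b : comW X ≠ ⊥ := by
    intro h
    have := mem_comW X x0 hx0 v0
    rw [h, Submodule.mem_bot] at this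
    exact hv0 this
  have h12 : fixW X ⊓ comW X ≠ ⊥ := by
    obtain ⟨v, hv, hv0, hfix⟩ := exists_fix c.p c.hp X hp (comW X) h2b (by
      intro x hx v hv
      have := (comW X).add_mem (mem_comW X x hx v) hv
      simpa [Matrix.sub_mulVec] using this)
    exact (Submodule.ne_bot_iff _).mpr ⟨v, ⟨hfix, hv⟩, hv0⟩
  have pos : ∀ ψ ∈ H, ∀ t, c.Ind t ψ → t.neg = false →
      (∀ v ∈ fixW X, t.av v ∈ fixW X) ∧ ∀ v ∈ comW X, t.av v ∈ comW X := by
    intro ψ hψ t ht hn
    have hform : ∀ x : Gl n F, ((ψ x : Gl n F) : Mt n F) = t.ap x := by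
      intro x
      have := ht.2.2 x
      rw [hn] at this
      simpa using this
    refine ⟨?_, ?_⟩
    · intro v hv y hy
      obtain ⟨x, hx, rfl⟩ := surjX hinv ψ hψ y hy
      rw [hform, kt.vec t hn, hv x hx]
    · intro v hv
      induction hv using Submodule.span_induction with
      | mem u hu =>
        obtain ⟨x, hx, w, rfl⟩ := hu
        rw [← kt.vec t hn, kt.sub, kt.one, ← hform]
        exact mem_comW X _ (hinv ψ hψ x hx) _
      | zero =>
        have := kt.av_smul t 0 0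
        simp only [zero_smul, map_zero] at this
        rw [this]; exact zero_mem _
      | add a b _ _ ha hb => rw [kt.av_add]; exact add_mem ha hb
      | smul a u _ hu => rw [kt.av_smul]; exact Submodule.smul_mem _ _ hu
  have neg : ∀ ψ ∈ H, ∀ t, c.Ind t ψ → t.neg = true →
      t.du (fixW X) = comW X ∧ t.du (comW X) = fixW X := by
    intro ψ hψ t ht hn
    have kd := hKD F n t hn
    have hform : ∀ x : Gl n F, ((ψ x : Gl n F) : Mt n F) - 1 =
        t.ap (((x⁻¹ : Gl n F) : Mt n F) - 1) := by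
      intro x
      have := ht.2.2 x
      rw [hn] at this
      simp only [if_true] at this
      rw [kt.sub, kt.one, this]
    have a1 : comW X ≤ t.du (fixW X) := by
      refine Submodule.span_le.mpr ?_
      rintro u ⟨y, hy, v, rfl⟩
      obtain ⟨x, hx, rfl⟩ := surjX hinv ψ hψ y hy
      rw [hform]
      refine (kd.map _ (fixW X) ⊥).mp ?_ v (by rw [kd.bot]; trivial)
      intro w hw
      rw [Matrix.sub_mulVec, Matrix.one_mulVec, hw _ (inv_mem hx), sub_self]
      exact zero_mem _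
    have a2 : t.du (comW X) ≤ fixW X := by
      intro v hv y hy
      obtain ⟨x, hx, rfl⟩ := surjX hinv ψ hψ y hy
      have := (kd.map (((x⁻¹ : Gl n F) : Mt n F) - 1) ⊤ (comW X)).mp
        (fun w _ => mem_comW X _ (inv_mem hx) w) v hv
      rw [kd.top, Submodule.mem_bot, ← hform, Matrix.sub_mulVec, Matrix.one_mulVec] at this
      exact sub_eq_zero.mp this
    have r1 := kd.rk (fixW X)
    have r2 := kd.rk (comW X)
    have l1 := Submodule.finrank_mono a1
    have l2 := Submodule.finrank_mono a2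
    exact ⟨(Submodule.eq_of_le_of_finrank_eq a1 (by omega)).symm,
      Submodule.eq_of_le_of_finrank_eq a2 (by omega)⟩
  by_cases hex : ∃ ψ ∈ H, ∃ t, c.Ind t ψ ∧ t.neg = true
  · have neg' : ∀ ψ ∈ H, ∀ t, c.Ind t ψ → t.neg = true →
        t.du (fixW X ⊓ comW X) = fixW X ⊔ comW X ∧ t.du (fixW X ⊔ comW X) = fixW X ⊓ comW X := by
      intro ψ hψ t ht hn
      have kd := hKD F n t hn
      obtain ⟨e1, e2⟩ := neg ψ hψ t ht hn
      rw [kd.inf, kd.sup, e1, e2, sup_comm, inf_comm]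
      exact ⟨rfl, rfl⟩
    obtain ⟨ψ, hψ, t, ht, hn⟩ := hex
    refine ⟨fixW X ⊓ comW X, fixW X ⊔ comW X, flag_of c ka kt kv hKD hu hL _ _ h12 ?_
      inf_le_sup ?_ neg' (Or.inr ⟨ψ, hψ, t, ht, hn, neg' ψ hψ t ht hn⟩)⟩
    · intro h
      have kd := hKD F n t hn
      obtain ⟨e1, e2⟩ := neg' ψ hψ t ht hn
      rw [h, kd.top] at e2
      exact h12 e2.symm
    · intro ψ hψ t ht hn
      obtain ⟨p1, p2⟩ := pos ψ hψ t ht hn
      refine ⟨fun v hv => ⟨p1 v hv.1, p2 v hv.2⟩, fun v hv => ?_⟩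
      obtain ⟨a, ha, b, hb, rfl⟩ := Submodule.mem_sup.mp hv
      rw [kt.av_add]
      exact Submodule.add_mem_sup (p1 a ha) (p2 b hb)
  · refine ⟨fixW X, fixW X, flag_of c ka kt kv hKD hu hL _ _
      (fun h => h12 (by rw [h, bot_inf_eq])) h1t le_rfl ?_ ?_ (Or.inl rfl)⟩
    · intro ψ hψ t ht hn
      exact ⟨(pos ψ hψ t ht hn).1, (pos ψ hψ t ht hn).1⟩
    · intro ψ hψ t ht hn
      exact absurd ⟨ψ, hψ, t, ht, hn⟩ hex

end Cfsg.Agent.H40.SwPar1
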