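import Mathlib.Data.Nat.Bitwise
import Mathlib.Data.Fin.VecNotation
import Mathlib.Data.List.Nodup

/-!
Computations with `4 × 4` matrices over `𝔽₂`, coded as natural numbers below `2 ^ 16`.
-/

set_option autoImplicit false

namespace Cfsg.Agent.H40.U4Cls

def fr (x : ℕ) (f : ℕ → Bool) : Bool :=
  @Nat.rec (fun _ => Bool) (f 0) (fun k _ => f (Nat.succ k)) x

def bo (a b : Bool) : Bool := @Bool.rec (fun _ => Bool) b true a

def bi (a b : Bool) : Bool := @Bool.rec (fun _ => Bool) true b a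

def ba (a b : Bool) : Bool := @Bool.rec (fun _ => Bool) false b a

def al (n : ℕ) (p : ℕ → Bool) : Bool :=
  @Nat.rec (fun _ => Bool) true (fun k r => ba (p k) r) n

def an (L : List ℕ) (p : ℕ → Bool) : Bool :=
  @List.rec ℕ (fun _ => Bool) false (fun a _ r => bo (p a) r) L

def aL (L : List ℕ) (p : ℕ → Bool) : Bool :=
  @List.rec ℕ (fun _ => Bool) true (fun a _ r => ba (p a) r) L

def el (c : ℕ) (L : List ℕ) : Bool := an L (Nat.beq c)

@[simp] theorem fr_eq (x : ℕ) (f : ℕ → Bool) : fr x f = f x := by cases x <;> rfl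

@[simp] theorem bo_iff (a b : Bool) : bo a b = true ↔ a = true ∨ b = true := by
  cases a <;> simp [bo]

@[simp] theorem bi_iff (a b : Bool) : bi a b = true ↔ (a = true → b = true) := by
  cases a <;> simp [bi]

@[simp] theorem ba_iff (a b : Bool) : ba a b = true ↔ a = true ∧ b = true := by
  cases a <;> simp [ba]

@[simp] theorem beq_iff (a b : ℕ) : Nat.beq a b = true ↔ a = b := Nat.beq_eq ▸ Iff.rfl

@[simp] theorem al_iff (n : ℕ) (p : ℕ → Bool) : al n p = true ↔ ∀ k < n, p k = true := by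
  induction n with
  | zero => simp [al]
  | succ n ih =>
    change ba (p n) (al n p) = true ↔ _
    rw [ba_iff, ih]
    exact ⟨fun h k hk => (Nat.lt_succ_iff_lt_or_eq.1 hk).elim (h.2 k) fun e => e ▸ h.1,
      fun h => ⟨h n (Nat.lt_succ_self n), fun k hk => h k (Nat.lt_succ_of_lt hk)⟩⟩

@[simp] theorem an_iff (L : List ℕ) (p : ℕ → Bool) : an L p = true ↔ ∃ a ∈ L, p a = true := by
  induction L with
  | nil => simp [an]
  | cons a L ih =>
    change bo (p a) (an L p) = true ↔ _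
    simp [ih]

@[simp] theorem aL_iff (L : List ℕ) (p : ℕ → Bool) : aL L p = true ↔ ∀ a ∈ L, p a = true := by
  induction L with
  | nil => simp [aL]
  | cons a L ih =>
    change ba (p a) (aL L p) = true ↔ _
    simp [ih]

@[simp] theorem el_iff (c : ℕ) (L : List ℕ) : el c L = true ↔ c ∈ L := by simp [el]

/-- the matrix `c` applied to the vector `n` -/
def ap (c n : ℕ) : ℕ :=
  Nat.xor (Nat.xor (Nat.mul (Nat.mod n 2) (Nat.mod c 16))
      (Nat.mul (Nat.mod (Nat.div n 2) 2) (Nat.mod (Nat.div c 16) 16)))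
    (Nat.xor (Nat.mul (Nat.mod (Nat.div n 4) 2) (Nat.mod (Nat.div c 256) 16))
      (Nat.mul (Nat.div n 8) (Nat.div c 4096)))

/-- the product of matrices -/
def ml (c d : ℕ) : ℕ :=
  Nat.add (Nat.add (ap c (Nat.mod d 16)) (Nat.mul 16 (ap c (Nat.mod (Nat.div d 16) 16))))
    (Nat.add (Nat.mul 256 (ap c (Nat.mod (Nat.div d 256) 16))) (Nat.mul 4096 (ap c (Nat.div d 4096))))

theorem ap_eq (c n : ℕ) : ap c n = ((n % 2 * (c % 16)) ^^^ (n / 2 % 2 * (c / 16 % 16))) ^^^
    ((n / 4 % 2 * (c / 256 % 16)) ^^^ (n / 8 * (c / 4096))) := rfl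

theorem ml_eq (c d : ℕ) : ml c d = ap c (d % 16) + 16 * ap c (d / 16 % 16) +
    (256 * ap c (d / 256 % 16) + 4096 * ap c (d / 4096)) := rfl

def Xs : List ℕ := [33825, 46369, 54321, 62769]

def Gc : Fin 3 → ℕ := ![35858, 34347, 5672]

def Lc : Fin 3 → List ℕ :=
  ![[27171, 31011, 32306, 64019, 27698, 55571, 48658, 62769, 35858, 54321, 46369, 33825],
    [61893, 33188, 30180, 53732, 45461, 25797, 64966, 35750, 26020, 18663, 31725, 57319, 47255, 29845,
      23494, 26831, 19878, 28584, 18157, 6973, 24471, 32155, 22479, 6207, 18344, 7976, 63037, 22171,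
      7467, 55103, 46888, 62769, 34347, 54321, 46369, 33825],
    [34369, 45681, 56955, 46929, 33377, 64616, 55105, 62305, 35439, 4680, 5499, 36555, 63057, 54129,
      47485, 4699, 5224, 48360, 4941, 5487, 55967, 55880, 45768, 62923, 4959, 5245, 63917, 63835,
      33515, 54504, 36429, 62365, 46495, 64200, 47567, 48223, 54191, 33965, 55787, 35565, 48797,
      64667, 34511, 55615, 36015, 57000, 47085, 64061, 55195, 35883, 5695, 63144, 48680, 5949, 5931,
      62769, 5672, 54321, 46369, 33825]]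

def Tc : Fin 3 → List ℕ :=
  ![[33188, 33268, 35750, 35858, 36054, 36626, 48402, 48658, 53684, 53732, 64182, 64966],
    [13866, 21612, 29262, 33359, 33901, 34347], [4680, 5224, 5672, 33353, 33897, 34345]]

def NN (i : ℕ) : ℕ :=
  [33825, 34337, 34369, 33345, 33377, 33889, 37921, 38433, 38465, 37441, 37473, 37985].getD i 0

def NI (i : ℕ) : ℕ :=
  [33825, 34337, 33377, 33345, 34369, 33889, 37921, 38433, 37473, 37441, 38465, 37985].getD i 0

/-- of order four, or an involution which centralizes `X` and is not in `X` -/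
def bad (c : ℕ) : Bool := fr (ml c c) fun s =>
  @Bool.rec (fun _ => Bool) (Nat.beq (ml s s) 33825)
    (ba (Nat.beq (ml c 46369) (ml 46369 c)) (ba (Nat.beq (ml c 54321) (ml 54321 c)) (!el c Xs)))
    (Nat.beq s 33825)

theorem bad_spec {c : ℕ} (h : bad c = true) :
    (ml c c ≠ 33825 ∧ ml (ml c c) (ml c c) = 33825) ∨
      (ml c c = 33825 ∧ ml c 46369 = ml 46369 c ∧ ml c 54321 = ml 54321 c ∧ c ∉ Xs) := by
  rw [bad, fr_eq] at h
  by_cases e : ml c c = 33825
  · rw [(beq_iff _ _).2 e] at h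
    simp only [ba_iff, beq_iff, Bool.not_eq_true', ← Bool.not_eq_true, el_iff] at h
    exact Or.inr ⟨e, h⟩
  · rw [Bool.eq_false_iff.2 (mt (beq_iff _ _).1 e)] at h
    exact Or.inl ⟨e, (beq_iff _ _).1 h⟩

/-- search among short words -/
def sr (H : List ℕ) (c : ℕ) (p : ℕ → Bool) : Bool :=
  bo (an H fun h => fr (ml h c) p)
    (an H fun h => fr (ml h c) fun a => an H fun h' => fr (ml h' c) fun b => fr (ml a b) p)

theorem sr_spec {H : List ℕ} {c : ℕ} {p : ℕ → Bool} {P : ℕ → Prop}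
    (hm : ∀ a b, P a → P b → P (ml a b)) (hH : ∀ h ∈ H, P h) (hc : P c) (e : sr H c p = true) :
    ∃ w, P w ∧ p w = true := by
  simp only [sr, bo_iff, an_iff, fr_eq] at e
  rcases e with ⟨h, h1, e⟩ | ⟨h, h1, h', h2, e⟩
  · exact ⟨_, hm _ _ (hH h h1) hc, e⟩
  · exact ⟨_, hm _ _ (hm _ _ (hH h h1) hc) (hm _ _ (hH h' h2) hc), e⟩

/-- every member of the list is a later member times a generator -/
def ch (S L : List ℕ) : Bool :=
  @List.rec ℕ (fun _ => Bool) true (fun c R r =>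
    ba (bo (Nat.beq c 33825) (an R fun s => an S fun g => Nat.beq (ml s g) c)) r) L

theorem ch_spec {S L : List ℕ} {P : ℕ → Prop} (hm : ∀ a b, P a → P b → P (ml a b)) (h1 : P 33825)
    (hS : ∀ g ∈ S, P g) (e : ch S L = true) : ∀ c ∈ L, P c := by
  induction L with
  | nil => simp
  | cons c R ih =>
    change ba (bo (Nat.beq c 33825) (an R fun s => an S fun g => Nat.beq (ml s g) c)) (ch S R) = true
      at e
    simp only [ba_iff, bo_iff, an_iff, beq_iff] at e
    intro d hd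
    rcases List.mem_cons.1 hd with rfl | hd
    · rcases e.1 with rfl | ⟨s, hs, g, hg, rfl⟩
      · exact h1
      · exact hm _ _ (ih e.2 s hs) (hS g hg)
    · exact ih e.2 d hd

theorem ch_L : ∀ k, ch [46369, 54321, Gc k] (Lc k) = true := by decide +kernel

theorem mul_L : ∀ k, (aL (Lc k) fun a => aL (Lc k) fun b => fr (ml a b) fun c => el c (Lc k)) = true := by
  decide +kernel

theorem len_L : ∀ k, (Lc k).Nodup ∧ (Lc k).length = ![12, 36, 60] k ∧ Gc k ∈ Lc k ∧
    ∀ x ∈ Xs, x ∈ Lc k := by decide +kernel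

theorem T_spec : ∀ k, ∀ t ∈ Tc k, ∃ i < 12, ml (ml (NI i) t) (NN i) = Gc k := by decide +kernel

theorem T_conj : ∀ i < 12, ∀ t ∈ Tc 1, ml (ml (NN i) t) (NI i) ∈ Tc 1 := by decide +kernel

theorem N_inv : ∀ i < 12, ml (NN i) (ml (NN i) (ml (NN i) (ml (NN i) (NN i)))) = NI i ∧
    ml (NN i) (NI i) = 33825 := by decide +kernel

theorem G_spec : ∀ k, (∀ n < 16, ap (Gc k) n < 16 ∧ ap (Gc k) (ap (Gc k) n) = n) ∧
    (ml (ml (Gc k) 46369) (Gc k) ∉ Xs ∨ ml (ml (Gc k) 54321) (Gc k) ∉ Xs) := by decide +kernel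

def pA (w : ℕ) : Bool :=
  bo (bad w) (an Xs fun x => fr (ml w x) fun u => bo (el u (Tc 0)) (bo (el u (Tc 1)) (el u (Tc 2))))

def ck1 (c : ℕ) : Bool :=
  bi (Nat.beq (ap c (Nat.mod c 16)) 1) (bi (Nat.beq (ml c c) 33825)
    (ba (bo (el c Xs) (sr Xs c pA))
      (ba (bo (el c (Lc 0)) (sr (Lc 0) c fun w => bo (el w (Tc 1)) (bad w)))
        (ba (bo (el c (Lc 1)) (sr (Lc 1) c bad)) (bo (el c (Lc 2)) (sr (Lc 2) c bad))))))

theorem scan1 : (al 256 fun a => al 256 fun b => fr (Nat.add a (Nat.mul 256 b)) ck1) = true := by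
  decide +kernel

def pN (k : Fin 3) (c : ℕ) : Bool :=
  bo (el c (Lc k)) (bo (fr (ml c c) fun a => fr (ml (Gc k) a) fun b => fr (ml c b) fun d =>
    fr (ml d (Gc k)) bad) (sr (Lc k) c bad))

def ck2 (c : ℕ) : Bool :=
  bi (fr (ml c 46369) fun a => an Xs fun x => Nat.beq a (ml x c))
    (bi (fr (ml c 54321) fun a => an Xs fun x => Nat.beq a (ml x c))
      (bi (al 15 fun v => !Nat.beq (ap c (Nat.succ v)) 0) (ba (pN 0 c) (ba (pN 1 c) (pN 2 c)))))

theorem scan2 : (al 64 fun a => al 64 fun b =>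
    fr (Nat.add 1 (Nat.mul 16 (Nat.add a (Nat.mul 64 b)))) ck2) = true := by
  decide +kernel

theorem scan1' {c : ℕ} (hc : c < 65536) (h1 : ap c (c % 16) = 1) (h2 : ml c c = 33825) :
    (c ∈ Xs ∨ sr Xs c pA = true) ∧
      (c ∈ Lc 0 ∨ sr (Lc 0) c (fun w => bo (el w (Tc 1)) (bad w)) = true) ∧
      (c ∈ Lc 1 ∨ sr (Lc 1) c bad = true) ∧ (c ∈ Lc 2 ∨ sr (Lc 2) c bad = true) := by
  have h := (al_iff _ _).1 ((al_iff _ _).1 scan1 (c % 256) (by omega)) (c / 256) (by omega)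
  rw [show Nat.add (c % 256) (Nat.mul 256 (c / 256)) = c from Nat.mod_add_div c 256, fr_eq] at h
  simp only [ck1, bi_iff, ba_iff, bo_iff, beq_iff, el_iff] at h
  exact h h1 h2

theorem scan2' {c : ℕ} (hc : c < 65536) (h0 : c % 16 = 1) (h1 : ∃ x ∈ Xs, ml c 46369 = ml x c)
    (h2 : ∃ x ∈ Xs, ml c 54321 = ml x c) (h3 : ∀ v < 15, ap c (v + 1) ≠ 0) (k : Fin 3) :
    c ∈ Lc k ∨ bad (ml (ml c (ml (Gc k) (ml c c))) (Gc k)) = true ∨ sr (Lc k) c bad = true := by
  have h := (al_iff _ _).1 ((al_iff _ _).1 scan2 (c / 16 % 64) (by omega)) (c / 1024) (by omega)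
  rw [show Nat.add 1 (Nat.mul 16 (Nat.add (c / 16 % 64) (Nat.mul 64 (c / 1024)))) = c by
    change 1 + 16 * (c / 16 % 64 + 64 * (c / 1024)) = c
    omega, fr_eq] at h
  simp only [ck2, pN, bi_iff, ba_iff, bo_iff, beq_iff, el_iff, fr_eq, an_iff, al_iff,
    Bool.not_eq_true', ← Bool.not_eq_true] at h
  obtain ⟨a, b, d⟩ := h h1 h2 h3
  match k with
  | 0 => exact a
  | 1 => exact b
  | 2 => exact d

end Cfsg.Agent.H40.U4Cls
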